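import Groth.Agent.Hensel.Lazard
import Groth.Prelude.Def_EtRam
import Groth.Prelude.Def_SGA1t
import Groth.Prelude.Def_Hens2
import Mathlib.RingTheory.Etale.Basic
import Mathlib.RingTheory.TensorProduct.Finite
import Mathlib.RingTheory.DiscreteValuationRing.Basic
import Mathlib.RingTheory.Localization.Away.Basic
import Mathlib.RingTheory.Ideal.MinimalPrime.Basic

/-!
# Interface statements for the relative Abhyankar lemma (S3689)

`StarNormal` (A), `AbhDVR` (D2), `TameRing` (D1), `ChartSH` (E1): closed `Prop`s, used as hypotheses of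
the assembly until they are proved.
-/

set_option autoImplicit false

universe u

open CategoryTheory CategoryTheory.Limits AlgebraicGeometry TensorProduct IsLocalRing

namespace Groth.Agent.Pi1.H391.Stmts

/-- (A) Purity over a normal base.  `O` normal local domain, `R` a local ring, ind-etale over
`O[T_σ]`, `O → R` local, `t_i` (the images of distinct coordinates) in the maximal ideal of `R`; `C` a finite etale
algebra over `R_t = R[1/∏ t_i]` which is unramified at every discrete valuation ring `B = R_{(t_i)}`.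
Then `C` extends to a finite etale `R`-algebra. -/
def StarNormal : Prop :=
  ∀ (O R : Type u) [CommRing O] [IsDomain O] [IsLocalRing O] [IsIntegrallyClosed O]
    [CommRing R] [IsLocalRing R] [HenselianLocalRing R] [IsSepClosed (ResidueField R)]
    [Algebra O R] [IsLocalHom (algebraMap O R)]
    (σ : Type) [Finite σ] [Algebra (MvPolynomial σ O) R] [IsScalarTower O (MvPolynomial σ O) R]
    (_ : Groth.Agent.Hensel.Lazard.Laz (MvPolynomial σ O) R)
    (ι : Type) [Fintype ι] (e : ι → σ) (_ : Function.Injective e) (t : ι → R)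
    (_ : ∀ i, algebraMap (MvPolynomial σ O) R (MvPolynomial.X (e i)) = t i)
    (_ : ∀ i, t i ∈ maximalIdeal R)
    (Rt : Type u) [CommRing Rt] [Algebra R Rt] [IsLocalization.Away (∏ i, t i) Rt]
    (K : Type u) [Field K] [Algebra R K] [Algebra Rt K] [IsScalarTower R Rt K] [IsFractionRing R K]
    (C : Type u) [CommRing C] [Algebra Rt C] [Module.Finite Rt C] [Algebra.Etale Rt C]
    (_ : ∀ i, ∃ (B : Type u) (_ : CommRing B) (_ : Algebra R B) (_ : Algebra B K)
      (_ : IsScalarTower R B K) (_ : (Ideal.span {t i}).IsPrime)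
      (_ : IsLocalization.AtPrime B (Ideal.span {t i}))
      (D : Type u) (_ : CommRing D) (_ : Algebra B D) (_ : Module.Finite B D)
      (_ : Algebra.Etale B D), Nonempty (K ⊗[B] D ≃ₐ[K] K ⊗[Rt] C)),
    ∃ (E : Type u) (_ : CommRing E) (_ : Algebra R E) (_ : Module.Finite R E)
      (_ : Algebra.Etale R E), Nonempty (Rt ⊗[R] E ≃ₐ[Rt] C)

/-- (D2) Abhyankar's lemma over a discrete valuation ring `B` with uniformizer `ϖ`, for exponents
divisible by `N!` where `N` bounds the degree (the exponent may be divisible by the residue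
characteristic): a finite etale `Frac B`-algebra `E` of degree `≤ N` all of whose residue fields are
tamely ramified over `B` becomes unramified over `B_n = B[X]/(X^n - ϖ)`. -/
def AbhDVR : Prop :=
  ∀ (B : Type u) [CommRing B] [IsDomain B] [IsDiscreteValuationRing B] (ϖ : B) (_ : Irreducible ϖ)
    (K : Type u) [Field K] [Algebra B K] [IsFractionRing B K]
    (E : Type u) [CommRing E] [Algebra K E] [Module.Finite K E] [Algebra.Etale K E]
    (N : ℕ) (_ : Module.finrank K E ≤ N)
    (_ : ∀ (L : Type u) [Field L] [Algebra K L] (g : E →ₐ[K] L), Function.Surjective g →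
      EtRam.IsTamelyRamified B ((algebraMap K L).comp (algebraMap B K)))
    (n : ℕ) (_ : 1 ≤ n) (_ : N.factorial ∣ n),
    ∃ (D : Type u) (_ : CommRing D)
      (_ : Algebra (SGA1t.kummer B (fun _ : Unit => ϖ) (fun _ => n)) D)
      (_ : Module.Finite (SGA1t.kummer B (fun _ : Unit => ϖ) (fun _ => n)) D)
      (_ : Algebra.Etale (SGA1t.kummer B (fun _ : Unit => ϖ) (fun _ => n)) D),
      ∀ (Q : Type u) [CommRing Q] [Algebra (SGA1t.kummer B (fun _ : Unit => ϖ) (fun _ => n)) Q]
        [Algebra K Q] [Algebra B Q] [IsScalarTower B (SGA1t.kummer B (fun _ : Unit => ϖ) (fun _ => n)) Q]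
        [IsScalarTower B K Q],
        Nonempty (Q ⊗[SGA1t.kummer B (fun _ : Unit => ϖ) (fun _ => n)] D ≃ₐ[Q] Q ⊗[K] E)

/-- (D1) Ring form of the tameness hypothesis of S3689: `Ω` separably closed, `O_{S,f(x)} → Ω` with
kernel a minimal prime, `B` a discrete valuation ring which is the local ring of
`R ⊗_{O_{S,f(x)}} Ω` at a prime, `L` a field generated over `Frac B` by the image of `Γ(V₁)`. -/
def TameRing : Prop :=
  ∀ {X S : Scheme.{u}} (f : X ⟶ S) {r : ℕ} (φ : Fin r → Γ(X, ⊤)) (x : X)
    (R : Type u) [CommRing R] [IsLocalRing R] [Algebra (X.presheaf.stalk x) R]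
    [IsLocalHom (algebraMap (X.presheaf.stalk x) R)] [Hensel.IsStrictHenselization (X.presheaf.stalk x) R]
    (V₁ : FEt.Cat (SGA1t.compl (fun i => (Hens2.specOf X x R).appTop (φ i)) : Scheme.{u}))
    (_ : SGA1t.IsRelTameOver (Hens2.specOf X x R ≫ f) (fun i => (Hens2.specOf X x R).appTop (φ i)) V₁
      {s : S | ∀ s' : S, s' ⤳ s → s' = s})
    [Algebra (S.presheaf.stalk (f x)) R]
    (_ : algebraMap (S.presheaf.stalk (f x)) R =
      (algebraMap (X.presheaf.stalk x) R).comp (f.stalkMap x).hom)
    (Ω : Type u) [Field Ω] [IsSepClosed Ω] [Algebra (S.presheaf.stalk (f x)) Ω]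
    (_ : RingHom.ker (algebraMap (S.presheaf.stalk (f x)) Ω) ∈ minimalPrimes (S.presheaf.stalk (f x)))
    (B : Type u) [CommRing B] [IsDomain B] [IsDiscreteValuationRing B]
    [Algebra (R ⊗[S.presheaf.stalk (f x)] Ω) B]
    (y : Ideal (R ⊗[S.presheaf.stalk (f x)] Ω)) [y.IsPrime] [IsLocalization.AtPrime B y]
    (K : Type u) [Field K] [Algebra B K] [IsFractionRing B K]
    (L : Type u) [Field L] [Algebra K L] (v : Spec (CommRingCat.of L) ⟶ V₁.left)
    (_ : v ≫ V₁.hom ≫ (SGA1t.compl (fun i => (Hens2.specOf X x R).appTop (φ i))).ι =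
      Spec.map (CommRingCat.ofHom ((((algebraMap K L).comp (algebraMap B K)).comp
        (algebraMap (R ⊗[S.presheaf.stalk (f x)] Ω) B)).comp Algebra.TensorProduct.includeLeftRingHom)))
    (_ : Algebra.adjoin K (Set.range (fun c : Γ(V₁.left, ⊤) =>
      (Scheme.ΓSpecIso (CommRingCat.of L)).hom.hom (v.appTop.hom c))) = ⊤),
    EtRam.IsTamelyRamified B ((algebraMap K L).comp (algebraMap B K))

/-- (E1) The chart of a strict henselization relative to a strict henselization of the base. -/
def ChartSH : Prop :=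
  ∀ {X S : Scheme.{u}} (f : X ⟶ S) {r : ℕ} (φ : Fin r → Γ(X, ⊤))
    (_ : SGA1t.IsRelSNC f φ) (x : X) (_ : Nonempty (SGA1t.vanishingAt φ x))
    (R : Type u) [CommRing R] [IsLocalRing R] [Algebra (X.presheaf.stalk x) R]
    [IsLocalHom (algebraMap (X.presheaf.stalk x) R)] [Hensel.IsStrictHenselization (X.presheaf.stalk x) R]
    [Algebra (S.presheaf.stalk (f x)) R]
    (_ : algebraMap (S.presheaf.stalk (f x)) R =
      (algebraMap (X.presheaf.stalk x) R).comp (f.stalkMap x).hom),
    ∃ (O : Type u) (_ : CommRing O) (_ : IsLocalRing O) (_ : Algebra (S.presheaf.stalk (f x)) O)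
      (_ : IsLocalHom (algebraMap (S.presheaf.stalk (f x)) O))
      (_ : Hensel.IsStrictHenselization (S.presheaf.stalk (f x)) O)
      (_ : Algebra O R) (_ : IsScalarTower (S.presheaf.stalk (f x)) O R) (_ : IsLocalHom (algebraMap O R))
      (d : ℕ) (_ : Algebra (MvPolynomial (Fin d) O) R) (_ : IsScalarTower O (MvPolynomial (Fin d) O) R)
      (_ : Groth.Agent.Hensel.Lazard.Laz (MvPolynomial (Fin d) O) R)
      (e : SGA1t.vanishingAt φ x → Fin d), Function.Injective e ∧
      ∀ i, algebraMap (MvPolynomial (Fin d) O) R (MvPolynomial.X (e i)) =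
        algebraMap (X.presheaf.stalk x) R ((X.presheaf.germ ⊤ x trivial).hom (φ i.1))

end Groth.Agent.Pi1.H391.Stmts
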