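import Groth.Agent.Pi1.H391.Descend
import Groth.Agent.Pi1A.Agree
import Mathlib.AlgebraicGeometry.Pullbacks
import Mathlib.AlgebraicGeometry.Morphisms.Etale
import Mathlib.RingTheory.Spectrum.Prime.Topology

/-!
# Descent and uniqueness of sections, ring forms
-/

set_option autoImplicit false

universe u

open CategoryTheory CategoryTheory.Limits AlgebraicGeometry TensorProduct

namespace Groth.Agent.Pi1.H391.DescAlg

/-- Relative form of `Descend.exists_section`. -/
theorem exists_lift {X S S₀ Z₀ : Scheme.{u}} (g : S ⟶ S₀) (z₀ : Z₀ ⟶ S₀) [IsFinite z₀] [Etale z₀] (f : X ⟶ S)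
    [Surjective f] [UniversallyClosed f] (s₀ : X ⟶ Z₀) (hs : s₀ ≫ z₀ = f ≫ g)
    (h : pullback.fst f f ≫ s₀ = pullback.snd f f ≫ s₀) :
    ∃ a : S ⟶ Z₀, a ≫ z₀ = g ∧ f ≫ a = s₀ := by
  let s : X ⟶ pullback z₀ g := pullback.lift s₀ f hs
  have hs1 : s ≫ pullback.fst z₀ g = s₀ := pullback.lift_fst _ _ _
  have hs2 : s ≫ pullback.snd z₀ g = f := pullback.lift_snd _ _ _
  obtain ⟨a, ha1, ha2⟩ := Descend.exists_section f (pullback.snd z₀ g) s hs2 (by
    apply pullback.hom_ext
    · rw [Category.assoc, Category.assoc, hs1, h]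
    · rw [Category.assoc, Category.assoc, hs2, pullback.condition])
  refine ⟨a ≫ pullback.fst z₀ g, ?_, ?_⟩
  · rw [Category.assoc, pullback.condition, reassoc_of% ha1]
  · rw [reassoc_of% ha2, hs1]

section

variable {A C : Type u} [CommRing A] [CommRing C] [Algebra A C] [Module.Finite A C] [Algebra.Etale A C]

theorem isFinite_etale : IsFinite (Spec.map (CommRingCat.ofHom (algebraMap A C))) ∧
    Etale (Spec.map (CommRingCat.ofHom (algebraMap A C))) := by
  constructor
  · rw [IsFinite.SpecMap_iff, CommRingCat.hom_ofHom, RingHom.finite_algebraMap]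
    infer_instance
  · rw [HasRingHomProperty.Spec_iff (P := @Etale), CommRingCat.hom_ofHom, RingHom.etale_algebraMap]
    infer_instance

/-- Descent of a section along an integral morphism which is surjective on spectra. -/
theorem exists_desc {P Q : Type u} [CommRing P] [Algebra A P] [CommRing Q] [Algebra A Q] [Algebra P Q]
    [IsScalarTower A P Q] [Algebra.IsIntegral P Q]
    (hsurj : Function.Surjective (PrimeSpectrum.comap (algebraMap P Q)))
    (s : C →ₐ[A] Q) (h : ∀ c, (s c) ⊗ₜ[P] (1 : Q) = (1 : Q) ⊗ₜ[P] (s c)) :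
    ∃ s' : C →ₐ[A] P, ∀ c, algebraMap P Q (s' c) = s c := by
  obtain ⟨hF, hE⟩ := isFinite_etale (A := A) (C := C)
  let f : Spec (CommRingCat.of Q) ⟶ Spec (CommRingCat.of P) := Spec.map (CommRingCat.ofHom (algebraMap P Q))
  have hf1 : Surjective f := ⟨hsurj⟩
  have hf2 : IsIntegralHom f := by
    rw [IsIntegralHom.SpecMap_iff, CommRingCat.hom_ofHom]
    exact algebraMap_isIntegral_iff.mpr inferInstance
  let s₀ : Spec (CommRingCat.of Q) ⟶ Spec (CommRingCat.of C) := Spec.map (CommRingCat.ofHom s.toRingHom)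
  obtain ⟨a, ha1, ha2⟩ := exists_lift (Spec.map (CommRingCat.ofHom (algebraMap A P)))
    (Spec.map (CommRingCat.ofHom (algebraMap A C))) f s₀ (by
      rw [← Spec.map_comp, ← Spec.map_comp, ← CommRingCat.ofHom_comp, ← CommRingCat.ofHom_comp]
      congr 2
      rw [← IsScalarTower.algebraMap_eq]
      exact s.comp_algebraMap) (by
      have h1 : (Algebra.TensorProduct.includeLeftRingHom : Q →+* Q ⊗[P] Q).comp s.toRingHom =
          (Algebra.TensorProduct.includeRight : Q →ₐ[P] Q ⊗[P] Q).toRingHom.comp s.toRingHom := by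
        ext c
        exact h c
      have h2 : Spec.map (CommRingCat.ofHom (Algebra.TensorProduct.includeLeftRingHom : Q →+* Q ⊗[P] Q)) ≫ s₀ =
          Spec.map (CommRingCat.ofHom
            (Algebra.TensorProduct.includeRight : Q →ₐ[P] Q ⊗[P] Q).toRingHom) ≫ s₀ := by
        rw [← Spec.map_comp, ← Spec.map_comp, ← CommRingCat.ofHom_comp, ← CommRingCat.ofHom_comp, h1]
      have h3 := pullbackSpecIso_hom_fst P Q Q
      have h4 := pullbackSpecIso_hom_snd P Q Q
      change pullback.fst f f ≫ s₀ = pullback.snd f f ≫ s₀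
      rw [← h3, ← h4, Category.assoc, Category.assoc]
      congr 1)
  obtain ⟨b, rfl⟩ : ∃ b : C →+* P, a = Spec.map (CommRingCat.ofHom b) :=
    ⟨(Spec.preimage a).hom, (Spec.map_preimage a).symm⟩
  rw [← Spec.map_comp, ← CommRingCat.ofHom_comp] at ha1 ha2
  have h5 := congrArg CommRingCat.Hom.hom (Spec.map_injective ha1)
  have h6 := congrArg CommRingCat.Hom.hom (Spec.map_injective ha2)
  exact ⟨{ b with commutes' := fun r => congr($h5 r) }, fun c => congr($h6 c)⟩

omit [Module.Finite A C] in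
/-- Sections over a connected base agreeing at one field valued point are equal. -/
theorem algHom_eq [Module.Finite A C] {Q : Type u} [CommRing Q] [Algebra A Q] [ConnectedSpace (PrimeSpectrum Q)]
    {Ω : Type u} [Field Ω] (b : Q →+* Ω) (s₁ s₂ : C →ₐ[A] Q)
    (h : b.comp s₁.toRingHom = b.comp s₂.toRingHom) : s₁ = s₂ := by
  obtain ⟨hF, hE⟩ := isFinite_etale (A := A) (C := C)
  have h0 : ∀ s : C →ₐ[A] Q, Spec.map (CommRingCat.ofHom s.toRingHom) ≫
      Spec.map (CommRingCat.ofHom (algebraMap A C)) = Spec.map (CommRingCat.ofHom (algebraMap A Q)) := by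
    intro s
    rw [← Spec.map_comp, ← CommRingCat.ofHom_comp]
    congr 2
    exact s.comp_algebraMap
  have h1 := Groth.Agent.Pi1A.Agree.eq_of_agree (Spec.map (CommRingCat.ofHom (algebraMap A C)))
    (Spec.map (CommRingCat.ofHom s₁.toRingHom)) (Spec.map (CommRingCat.ofHom s₂.toRingHom)) (by rw [h0, h0])
    (Spec.map (CommRingCat.ofHom b)) (by
      rw [← Spec.map_comp, ← Spec.map_comp, ← CommRingCat.ofHom_comp, ← CommRingCat.ofHom_comp, h]) (by
      intro U hU hr
      have hc : ConnectedSpace ↥(Spec (CommRingCat.of Q)) := ‹ConnectedSpace (PrimeSpectrum Q)›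
      have h3 : (U : Set (Spec (CommRingCat.of Q))) = Set.univ := by
        refine IsClopen.eq_univ ⟨hU, U.isOpen⟩ ?_
        exact ⟨_, hr ⟨IsLocalRing.closedPoint Ω, rfl⟩⟩
      exact SetLike.coe_injective h3)
  have h2 := congrArg CommRingCat.Hom.hom (Spec.map_injective h1)
  ext c
  exact congr($h2 c)

end

end Groth.Agent.Pi1.H391.DescAlg
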