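import Mathlib.AlgebraicGeometry.Morphisms.FlatRank
import Mathlib.AlgebraicGeometry.Morphisms.FlatMono
import Mathlib.AlgebraicGeometry.Morphisms.Integral
import Groth.Prelude.Def_FEt

/-!
# Descent of sections of a finite etale morphism along a universally closed surjective morphism
-/

set_option autoImplicit false

universe u

open CategoryTheory CategoryTheory.Limits AlgebraicGeometry

namespace Groth.Agent.Pi1.H391.Descend

variable {X S Z : Scheme.{u}} (f : X ⟶ S) (z : Z ⟶ S)

/-- A section over `X` whose graph is the preimage of a clopen subset comes from a section over `S`. -/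
theorem exists_section_of_clopen [IsFinite z] [Etale z] [Surjective f] (s : X ⟶ Z) (hs : s ≫ z = f)
    (U : Set Z) (hU : IsClopen U)
    (hUV : pullback.fst z f ⁻¹' U = Set.range (pullback.lift s (𝟙 X) (by rw [hs, Category.id_comp]) :
      X ⟶ pullback z f)) :
    ∃ a : S ⟶ Z, a ≫ z = 𝟙 S ∧ f ≫ a = s := by
  let γ : X ⟶ pullback z f := pullback.lift s (𝟙 X) (by rw [hs, Category.id_comp])
  have hγ1 : γ ≫ pullback.fst z f = s := pullback.lift_fst _ _ _
  have hγ2 : γ ≫ pullback.snd z f = 𝟙 X := pullback.lift_snd _ _ _
  let UO : Z.Opens := ⟨U, hU.isOpen⟩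
  have hrange : Set.range UO.ι = U := by simp [UO]
  have hιC : IsClosedImmersion UO.ι := by
    apply IsClosedImmersion.of_isPreimmersion
    rw [hrange]
    exact hU.isClosed
  let q : (UO : Scheme.{u}) ⟶ S := UO.ι ≫ z
  let k : X ⟶ (UO : Scheme.{u}) := IsOpenImmersion.lift UO.ι s (by
      rw [hrange]
      rintro _ ⟨p, rfl⟩
      have h1 : γ p ∈ Set.range γ := ⟨p, rfl⟩
      have h2 : pullback.fst z f (γ p) ∈ U := by
        have h3 : γ p ∈ pullback.fst z f ⁻¹' U := by rw [hUV]; exact h1
        exact h3
      rw [← hγ1]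
      exact h2)
  have hk : k ≫ UO.ι = s := IsOpenImmersion.lift_fac _ _ _
  have hsq1 : IsPullback k γ UO.ι (pullback.fst z f) := by
    have hγE : Etale γ := by
      have h1 : Etale (γ ≫ pullback.snd z f) := by rw [hγ2]; infer_instance
      exact Etale.of_comp γ (pullback.snd z f)
    have hγM : Mono γ := by
      have h1 : Mono (γ ≫ pullback.snd z f) := by rw [hγ2]; infer_instance
      exact mono_of_mono γ (pullback.snd z f)
    have hγO : IsOpenImmersion γ := IsOpenImmersion.of_flat_of_mono γ
    apply IsOpenImmersion.isPullback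
    · rw [hk, hγ1]
    · ext p
      simp only [Scheme.Opens.opensRange_ι, SetLike.mem_coe]
      change p ∈ pullback.fst z f ⁻¹' U ↔ p ∈ Set.range γ
      rw [hUV]
  have hsq2 : IsPullback k (𝟙 _) q f := by
    have h1 : IsPullback (pullback.fst z f) (pullback.snd z f) z f := IsPullback.of_hasPullback z f
    have h2 := hsq1.paste_vert h1
    rwa [hγ2] at h2
  have hqfin : IsFinite q := inferInstance
  have hqet : Etale q := inferInstance
  have hrank : ∀ p : X, q.finrank (f p) = 1 := by
    intro p
    rw [← Scheme.Hom.finrank_of_isPullback _ _ _ _ hsq2 p]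
    have := Scheme.Hom.finrank_eq_one_of_isIso (𝟙 X)
    rw [this]
    rfl
  have hq1 : q.finrank = 1 := by
    ext p
    obtain ⟨x, rfl⟩ := f.surjective p
    exact hrank x
  have hqiso : IsIso q := (Scheme.Hom.isIso_iff_finrank_eq q).mpr hq1
  refine ⟨inv q ≫ UO.ι, ?_, ?_⟩
  · rw [Category.assoc]
    exact IsIso.inv_hom_id q
  · have h3 : f ≫ inv q = k := by
      rw [← cancel_mono q, Category.assoc, IsIso.inv_hom_id, Category.comp_id, hsq2.w,
        Category.id_comp]
    rw [reassoc_of% h3, hk]

/-- Descent of a section of a finite etale morphism along a universally closed surjective morphism. -/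
theorem exists_section [IsFinite z] [Etale z] [Surjective f] [UniversallyClosed f] (s : X ⟶ Z)
    (hs : s ≫ z = f) (h : pullback.fst f f ≫ s = pullback.snd f f ≫ s) :
    ∃ a : S ⟶ Z, a ≫ z = 𝟙 S ∧ f ≫ a = s := by
  let γ : X ⟶ pullback z f := pullback.lift s (𝟙 X) (by rw [hs, Category.id_comp])
  have hγ1 : γ ≫ pullback.fst z f = s := pullback.lift_fst _ _ _
  have hγ2 : γ ≫ pullback.snd z f = 𝟙 X := pullback.lift_snd _ _ _
  have hγE : Etale γ := by
    have h1 : Etale (γ ≫ pullback.snd z f) := by rw [hγ2]; infer_instance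
    exact Etale.of_comp γ (pullback.snd z f)
  have hγC : IsClosedImmersion γ := by
    have : IsClosedImmersion (γ ≫ pullback.snd z f) := by rw [hγ2]; infer_instance
    exact IsClosedImmersion.of_comp γ (pullback.snd z f)
  have hγM : Mono γ := by
    have h1 : Mono (γ ≫ pullback.snd z f) := by rw [hγ2]; infer_instance
    exact mono_of_mono γ (pullback.snd z f)
  have hγO : IsOpenImmersion γ := IsOpenImmersion.of_flat_of_mono γ
  have hV : IsClopen (Set.range γ) :=
    ⟨γ.isClosedEmbedding.isClosed_range, γ.isOpenEmbedding.isOpen_range⟩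
  -- membership in the range of `γ`
  have hmem : ∀ {Ω : Type u} [Field Ω] (t : Spec (CommRingCat.of Ω) ⟶ pullback z f),
      (t ≫ pullback.fst z f = t ≫ pullback.snd z f ≫ s) ↔ t (IsLocalRing.closedPoint Ω) ∈ Set.range γ := by
    intro Ω _ t
    constructor
    · intro ht
      have h1 : t = (t ≫ pullback.snd z f) ≫ γ := by
        apply pullback.hom_ext
        · rw [Category.assoc, hγ1, Category.assoc, ht]
        · rw [Category.assoc, Category.assoc, hγ2, Category.comp_id]
      rw [h1]
      exact ⟨_, (Scheme.Hom.comp_apply _ _ _).symm⟩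
    · intro ht
      have hr : Set.range t ⊆ Set.range γ := by
        rintro _ ⟨y, rfl⟩
        have : y = IsLocalRing.closedPoint Ω := Subsingleton.elim _ _
        rw [this]
        exact ht
      let t' : Spec (CommRingCat.of Ω) ⟶ X := IsOpenImmersion.lift γ t hr
      have ht' : t' ≫ γ = t := IsOpenImmersion.lift_fac _ _ _
      rw [← ht', Category.assoc, Category.assoc, hγ1, reassoc_of% hγ2]
  -- saturation
  have hsat : ∀ x y : ↥(pullback z f), pullback.fst z f x = pullback.fst z f y → x ∈ Set.range γ →
      y ∈ Set.range γ := by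
    intro x y hxy hx
    obtain ⟨w, hw1, hw2⟩ := Scheme.Pullback.exists_preimage_pullback (f := pullback.fst z f)
      (g := pullback.fst z f) x y hxy
    let W := pullback (pullback.fst z f) (pullback.fst z f)
    let τ : Spec (CommRingCat.of (W.residueField w)) ⟶ W := W.fromSpecResidueField w
    have hτ : τ (IsLocalRing.closedPoint (W.residueField w)) = w :=
      Scheme.fromSpecResidueField_apply w _
    have h1 : (τ ≫ pullback.fst _ _) ≫ pullback.fst z f = (τ ≫ pullback.fst _ _) ≫ pullback.snd z f ≫ s := by
      rw [hmem, Scheme.Hom.comp_apply, hτ, hw1]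
      exact hx
    let l : W ⟶ pullback f f := pullback.lift (pullback.fst _ _ ≫ pullback.snd z f)
      (pullback.snd _ _ ≫ pullback.snd z f) (by
        rw [Category.assoc, Category.assoc, ← pullback.condition (f := z) (g := f),
          pullback.condition_assoc])
    have hl1 : l ≫ pullback.fst f f = pullback.fst _ _ ≫ pullback.snd z f := pullback.lift_fst _ _ _
    have hl2 : l ≫ pullback.snd f f = pullback.snd _ _ ≫ pullback.snd z f := pullback.lift_snd _ _ _
    have h2 : (pullback.fst (pullback.fst z f) (pullback.fst z f) ≫ pullback.snd z f) ≫ s =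
        (pullback.snd (pullback.fst z f) (pullback.fst z f) ≫ pullback.snd z f) ≫ s := by
      rw [← hl1, ← hl2, Category.assoc, Category.assoc, h]
    have h3 : (τ ≫ pullback.snd _ _) ≫ pullback.fst z f = (τ ≫ pullback.snd _ _) ≫ pullback.snd z f ≫ s := by
      rw [Category.assoc, ← pullback.condition, ← Category.assoc, h1]
      simp only [Category.assoc] at h2 ⊢
      rw [h2]
    rw [hmem, Scheme.Hom.comp_apply, hτ, hw2] at h3
    exact h3
  have hsurj : Surjective (pullback.fst z f) := inferInstance
  have hclosed : IsClosedMap (pullback.fst z f) := (pullback.fst z f).isClosedMap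
  let U : Set Z := pullback.fst z f '' Set.range γ
  have hpre : pullback.fst z f ⁻¹' U = Set.range γ := by
    ext y
    constructor
    · rintro ⟨x, hx, hxy⟩
      exact hsat x y hxy hx
    · intro hy
      exact ⟨y, hy, rfl⟩
  have hUc : Uᶜ = pullback.fst z f '' (Set.range γ)ᶜ := by
    ext u
    constructor
    · intro hu
      obtain ⟨x, rfl⟩ := (pullback.fst z f).surjective u
      refine ⟨x, fun hx => hu ⟨x, hx, rfl⟩, rfl⟩
    · rintro ⟨x, hx, rfl⟩ ⟨y, hy, hxy⟩
      exact hx (hsat y x hxy hy)
  have hU : IsClopen U := by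
    refine ⟨hclosed _ hV.isClosed, ?_⟩
    rw [← isClosed_compl_iff, hUc]
    exact hclosed _ hV.compl.isClosed
  exact exists_section_of_clopen f z s hs U hU hpre

end Groth.Agent.Pi1.H391.Descend
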