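import Mathlib.RingTheory.Ideal.Quotient.Basic
import Mathlib.RingTheory.Ideal.Operations
import Mathlib.RingTheory.Finiteness.Ideal
import Mathlib.RingTheory.FinitePresentation
import Mathlib.Order.Zorn

/-!
# Induction over ideals; sections over quotients spread out

* `ideal_induction`: a property of ideals which is upward closed, of finite character, holds for primes and
  is stable under `I, J ⊇ K ⊇ I * J` holds for the zero ideal.
* `exists_fg_lift`: an `A`-algebra map from a finitely presented algebra to `A ⧸ I A` lifts to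
  `A ⧸ I' A` for a finitely generated `I' ≤ I`.
-/

set_option autoImplicit false

universe u v w

namespace Groth.Agent.Pi1.H391.IdealInd

theorem ideal_induction {O : Type*} [CommRing O] (P : Ideal O → Prop)
    (hmono : ∀ I J : Ideal O, I ≤ J → P I → P J)
    (hfg : ∀ I : Ideal O, P I → ∃ I' ≤ I, I'.FG ∧ P I')
    (hprime : ∀ p : Ideal O, p.IsPrime → P p)
    (hmul : ∀ I J K : Ideal O, I * J ≤ K → K ≤ I → K ≤ J → P I → P J → P K)
    (htop : P ⊤) : P ⊥ := by
  by_contra hbot
  obtain ⟨M, -, hM⟩ := zorn_le_nonempty₀ {I : Ideal O | ¬ P I} (by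
    intro c hc hchain y hy
    refine ⟨sSup c, ?_, fun z hz => le_sSup hz⟩
    intro hP
    obtain ⟨I', hI', hfgI', hPI'⟩ := hfg _ hP
    obtain ⟨s, hs⟩ := hfgI'
    have hdir : DirectedOn (· ≤ ·) c := hchain.directedOn
    have h1 : ∀ t : Finset O, (t : Set O) ⊆ (sSup c : Ideal O) → ∃ z ∈ c, (t : Set O) ⊆ z := by
      classical
      intro t
      induction t using Finset.induction_on with
      | empty => exact fun _ => ⟨y, hy, by simp⟩
      | insert a t _ ih =>
        intro h
        obtain ⟨z, hz, htz⟩ := ih (fun x hx => h (by simp [Finset.mem_coe.mp hx]))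
        have ha : a ∈ sSup c := h (by simp)
        obtain ⟨z', hz', haz'⟩ := (Submodule.mem_sSup_of_directed ⟨y, hy⟩ hdir).mp ha
        obtain ⟨w, hw, h1, h2⟩ := hdir z hz z' hz'
        refine ⟨w, hw, ?_⟩
        intro x hx
        rw [Finset.coe_insert, Set.mem_insert_iff] at hx
        rcases hx with rfl | hx
        · exact h2 haz'
        · exact h1 (htz hx)
    obtain ⟨z, hz, hsz⟩ := h1 s (fun x hx => hI' (hs ▸ Ideal.subset_span hx))
    exact hc hz (hmono I' z (by rw [← hs, Ideal.span_le]; exact hsz) hPI')) ⊥ hbot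
  have hMbad : ¬ P M := hM.prop
  have hmax : ∀ J : Ideal O, M < J → P J := by
    intro J hJ
    by_contra h
    exact absurd (hM.le_of_ge h hJ.le) (not_le_of_gt hJ)
  apply hMbad
  by_cases hp : M.IsPrime
  · exact hprime M hp
  · rw [Ideal.isPrime_iff] at hp
    push Not at hp
    by_cases hM1 : M = ⊤
    · rw [hM1]; exact htop
    · obtain ⟨a, b, hab, ha, hb⟩ := hp hM1
      have h1 : M < M ⊔ Ideal.span {a} := by
        refine lt_of_le_of_ne le_sup_left fun h => ha ?_
        rw [h]
        exact Ideal.mem_sup_right (Ideal.mem_span_singleton_self a)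
      have h2 : M < M ⊔ Ideal.span {b} := by
        refine lt_of_le_of_ne le_sup_left fun h => hb ?_
        rw [h]
        exact Ideal.mem_sup_right (Ideal.mem_span_singleton_self b)
      refine hmul _ _ M ?_ h1.le h2.le (hmax _ h1) (hmax _ h2)
      rw [Ideal.sup_mul, Ideal.mul_sup, Ideal.mul_sup, Ideal.span_singleton_mul_span_singleton]
      refine sup_le (sup_le Ideal.mul_le_left Ideal.mul_le_left) (sup_le Ideal.mul_le_right ?_)
      rw [Ideal.span_singleton_le_iff_mem]
      exact hab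

theorem exists_fg_mem {O A : Type*} [CommRing O] [CommRing A] (f : O →+* A) (I : Ideal O) {x : A}
    (hx : x ∈ I.map f) : ∃ I' ≤ I, I'.FG ∧ x ∈ I'.map f := by
  classical
  rw [Ideal.map] at hx
  obtain ⟨s, hs⟩ : ∃ s : Finset A, (s : Set A) ⊆ f '' I ∧ x ∈ Ideal.span (s : Set A) :=
    Submodule.mem_span_finite_of_mem_span hx
  obtain ⟨s', hs', rfl⟩ := Finset.subset_set_image_iff.mp hs.1
  refine ⟨Ideal.span s', Ideal.span_le.mpr hs', ⟨s', rfl⟩, ?_⟩
  rw [Ideal.map_span]
  simpa using hs.2

theorem exists_fg_lift {O : Type u} {A : Type v} {C : Type w} [CommRing O] [CommRing A] [CommRing C] [Algebra O A]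
    [Algebra A C] [Algebra.FinitePresentation A C] (I : Ideal O)
    (φ : C →ₐ[A] A ⧸ I.map (algebraMap O A)) :
    ∃ I' : Ideal O, ∃ h : I' ≤ I, I'.FG ∧ ∃ φ' : C →ₐ[A] A ⧸ I'.map (algebraMap O A),
      (Ideal.Quotient.factorₐ A (Ideal.map_mono h)).comp φ' = φ := by
  classical
  obtain ⟨n, π, hπ, hker⟩ := ‹Algebra.FinitePresentation A C›.out
  obtain ⟨s, hs⟩ := hker
  have h1 : ∀ i : Fin n, ∃ a : A, Ideal.Quotient.mk (I.map (algebraMap O A)) a = φ (π (MvPolynomial.X i)) :=
    fun i => Ideal.Quotient.mk_surjective _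
  choose a ha using h1
  have h2 : ∀ p : MvPolynomial (Fin n) A, Ideal.Quotient.mk (I.map (algebraMap O A)) (MvPolynomial.aeval a p) =
      φ (π p) := by
    intro p
    have : (Ideal.Quotient.mkₐ A (I.map (algebraMap O A))).comp (MvPolynomial.aeval a) = φ.comp π := by
      ext i
      simpa using ha i
    exact congr($this p)
  have h3 : ∀ p ∈ s, ∃ I' ≤ I, I'.FG ∧ MvPolynomial.aeval a p ∈ I'.map (algebraMap O A) := by
    intro p hp
    apply exists_fg_mem
    rw [← Ideal.Quotient.eq_zero_iff_mem, h2]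
    have : p ∈ RingHom.ker π.toRingHom := by rw [← hs]; exact Ideal.subset_span hp
    have h4 : π p = 0 := this
    rw [h4, map_zero]
  choose! F hF1 hF2 hF3 using h3
  let I' : Ideal O := s.sup F
  have hle : I' ≤ I := Finset.sup_le hF1
  have hfg : I'.FG := Submodule.fg_finset_sup s F hF2
  refine ⟨I', hle, hfg, ?_⟩
  let ψ : MvPolynomial (Fin n) A →ₐ[A] A ⧸ I'.map (algebraMap O A) :=
    (Ideal.Quotient.mkₐ A _).comp (MvPolynomial.aeval a)
  have hψ : ∀ p : MvPolynomial (Fin n) A, π p = 0 → ψ p = 0 := by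
    intro p hp
    have h4 : RingHom.ker π.toRingHom ≤ RingHom.ker ψ.toRingHom := by
      rw [← hs, Ideal.span_le]
      intro q hq
      change Ideal.Quotient.mk _ (MvPolynomial.aeval a q) = 0
      rw [Ideal.Quotient.eq_zero_iff_mem]
      exact Ideal.map_mono (Finset.le_sup (f := F) hq) (hF3 q hq)
    exact h4 hp
  let φ' : C →ₐ[A] A ⧸ I'.map (algebraMap O A) :=
    AlgHom.liftOfSurjective π hπ ψ (fun p hp => hψ p hp)
  refine ⟨φ', ?_⟩
  apply AlgHom.ext
  intro c
  obtain ⟨p, rfl⟩ := hπ c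
  have h5 : φ' (π p) = ψ p := by
    simp [φ']
  rw [AlgHom.comp_apply, h5, ← h2]
  rfl

end Groth.Agent.Pi1.H391.IdealInd
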