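import Mathlib.RingTheory.Ideal.GoingUp
import Mathlib.RingTheory.LocalRing.ResidueField.Ideal
import Mathlib.RingTheory.TensorProduct.Basic
import Mathlib.Algebra.CharP.Quotient
import Mathlib.Algebra.CharP.Algebra
import Mathlib.FieldTheory.IsSepClosed
import Mathlib.FieldTheory.PurelyInseparable.Basic
import Mathlib.RingTheory.LocalRing.ResidueField.Basic
import Mathlib.RingTheory.Flat.Basic
import Mathlib.FieldTheory.IsAlgClosed.AlgebraicClosure

/-!
# Tensor products of local integral algebras over a local ring with separably closed residue field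
-/

set_option autoImplicit false

universe u

open TensorProduct IsLocalRing

namespace Groth.Agent.Pi1.H391.LocTensor

theorem exists_pow_sub_mem {R R' C : Type*} [CommRing R] [CommRing R'] [Algebra R R'] [CommRing C] [Algebra R C]
    (m' : Ideal R') [m'.IsMaximal] (p : ℕ) [ExpChar (R' ⧸ m') p]
    (h : ∀ x : R', ∃ n : ℕ, ∃ a : R, x ^ p ^ n - algebraMap R R' a ∈ m') (x : R' ⊗[R] C) :
    ∃ n : ℕ, ∃ c : C, x ^ p ^ n - 1 ⊗ₜ c ∈ m'.map (algebraMap R' (R' ⊗[R] C)) := by
  set J := m'.map (algebraMap R' (R' ⊗[R] C)) with hJ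
  by_cases htriv : J = ⊤
  · exact ⟨0, 0, by rw [htriv]; trivial⟩
  have hnt : Nontrivial ((R' ⊗[R] C) ⧸ J) := Ideal.Quotient.nontrivial_iff.mpr htriv
  have hexp : ExpChar ((R' ⊗[R] C) ⧸ J) p := by
    let _ : Field (R' ⧸ m') := Ideal.Quotient.field m'
    let g : R' ⧸ m' →+* (R' ⊗[R] C) ⧸ J := Ideal.quotientMap J (algebraMap R' (R' ⊗[R] C)) Ideal.le_comap_map
    exact expChar_of_injective_ringHom g.injective p
  induction x using TensorProduct.induction_on with
  | zero => exact ⟨0, 0, by simp⟩
  | tmul r c =>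
    obtain ⟨n, a, ha⟩ := h r
    refine ⟨n, a • c ^ p ^ n, ?_⟩
    rw [Algebra.TensorProduct.tmul_pow]
    have : (1 : R') ⊗ₜ[R] (a • c ^ p ^ n) = (algebraMap R R' a) ⊗ₜ[R] (c ^ p ^ n) := by
      rw [TensorProduct.tmul_smul, TensorProduct.smul_tmul', Algebra.algebraMap_eq_smul_one]
    rw [this, ← TensorProduct.sub_tmul]
    have h2 : ((r ^ p ^ n - algebraMap R R' a) ⊗ₜ[R] (c ^ p ^ n) : R' ⊗[R] C) =
        algebraMap R' (R' ⊗[R] C) (r ^ p ^ n - algebraMap R R' a) * (1 ⊗ₜ (c ^ p ^ n)) := by
      simp [Algebra.TensorProduct.algebraMap_apply]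
    rw [h2]
    exact Ideal.mul_mem_right _ _ (Ideal.mem_map_of_mem _ ha)
  | add x y hx hy =>
    obtain ⟨n, c, hc⟩ := hx
    obtain ⟨k, d, hd⟩ := hy
    refine ⟨n + k, c ^ p ^ k + d ^ p ^ n, ?_⟩
    rw [← Ideal.Quotient.eq_zero_iff_mem] at hc hd ⊢
    rw [map_sub, sub_eq_zero] at hc hd ⊢
    rw [map_pow, map_add, add_pow_expChar_pow, pow_add, pow_mul, ← map_pow, hc, mul_comm (p ^ n) (p ^ k),
      pow_mul, ← map_pow _ y, hd, TensorProduct.tmul_add, map_add, ← map_pow, ← map_pow,
      Algebra.TensorProduct.tmul_pow, Algebra.TensorProduct.tmul_pow, one_pow, one_pow]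

theorem nontrivial_tensor_of_ringHom {R A B T : Type*} [CommRing R] [CommRing A] [CommRing B] [CommRing T]
    [Nontrivial T] [Algebra R A] [Algebra R B] (i : A →+* T) (j : B →+* T)
    (hij : i.comp (algebraMap R A) = j.comp (algebraMap R B)) : Nontrivial (A ⊗[R] B) := by
  let _ : Algebra R T := (i.comp (algebraMap R A)).toAlgebra
  let f : A ⊗[R] B →ₐ[R] T := Algebra.TensorProduct.lift
    ({ i with commutes' := fun r => rfl } : A →ₐ[R] T)
    ({ j with commutes' := fun r => congr($hij r).symm } : B →ₐ[R] T) (fun _ _ => Commute.all _ _)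
  exact f.toRingHom.domain_nontrivial

/-- Tensor products of local algebras along local homomorphisms are nontrivial. -/
theorem nontrivial_tensor (R A B : Type*) [CommRing R] [IsLocalRing R] [CommRing A] [IsLocalRing A]
    [CommRing B] [IsLocalRing B] [Algebra R A] [Algebra R B] [IsLocalHom (algebraMap R A)]
    [IsLocalHom (algebraMap R B)] : Nontrivial (A ⊗[R] B) := by
  have hnt : Nontrivial (ResidueField A ⊗[ResidueField R] ResidueField B) :=
    Algebra.TensorProduct.nontrivial_of_algebraMap_injective_of_flat_left (ResidueField R) _ _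
      (algebraMap (ResidueField R) (ResidueField B)).injective
  let T := ResidueField A ⊗[ResidueField R] ResidueField B
  let i : A →+* T := (Algebra.TensorProduct.includeLeftRingHom).comp (residue A)
  let j : B →+* T := (Algebra.TensorProduct.includeRight : _ →ₐ[ResidueField R] T).toRingHom.comp (residue B)
  refine nontrivial_tensor_of_ringHom i j ?_
  ext r
  have h1 : residue A (algebraMap R A r) = algebraMap (ResidueField R) (ResidueField A) (residue R r) := rfl
  have h2 : residue B (algebraMap R B r) = algebraMap (ResidueField R) (ResidueField B) (residue R r) := rfl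
  change (residue A (algebraMap R A r)) ⊗ₜ[ResidueField R] (1 : ResidueField B) =
    (1 : ResidueField A) ⊗ₜ[ResidueField R] (residue B (algebraMap R B r))
  rw [h1, h2, Algebra.algebraMap_eq_smul_one, Algebra.algebraMap_eq_smul_one, TensorProduct.smul_tmul]

/-- If `R'` is local, integral over the local ring `R`, with residue field purely inseparable over that of `R`,
then `R' ⊗[R] C` is local for every local `R`-algebra `C` (local homomorphism). -/
theorem isLocalRing_tensor_aux {R R' C : Type*} [CommRing R] [CommRing R'] [Algebra R R'] [CommRing C] [Algebra R C]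
    [IsLocalRing R] [IsLocalRing R'] [IsLocalRing C] [IsLocalHom (algebraMap R C)] [Algebra.IsIntegral R R']
    [Nontrivial (R' ⊗[R] C)]
    (p : ℕ) [ExpChar (R' ⧸ maximalIdeal R') p]
    (h : ∀ x : R', ∃ n : ℕ, ∃ a : R, x ^ p ^ n - algebraMap R R' a ∈ maximalIdeal R') :
    IsLocalRing (R' ⊗[R] C) := by
  let _ : Algebra C (R' ⊗[R] C) := Algebra.TensorProduct.rightAlgebra
  have hint : Algebra.IsIntegral C (R' ⊗[R] C) := by
    have : Algebra.IsIntegral C (C ⊗[R] R') := inferInstance
    let e : C ⊗[R] R' ≃ₐ[C] R' ⊗[R] C :=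
      { (Algebra.TensorProduct.comm R C R' : C ⊗[R] R' ≃ₐ[R] R' ⊗[R] C) with
        commutes' := fun c => by simp [Algebra.TensorProduct.right_algebraMap_apply] }
    exact Algebra.IsIntegral.of_surjective e.toAlgHom e.surjective
  have hC : ∀ (M : Ideal (R' ⊗[R] C)) [M.IsMaximal], M.comap (algebraMap C (R' ⊗[R] C)) = maximalIdeal C := by
    intro M hM
    have := Ideal.isMaximal_comap_of_isIntegral_of_isMaximal (R := C) M
    exact IsLocalRing.eq_maximalIdeal this
  have hR' : ∀ (M : Ideal (R' ⊗[R] C)) [M.IsMaximal], M.comap (algebraMap R' (R' ⊗[R] C)) = maximalIdeal R' := by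
    intro M hM
    have h1 : (M.comap (algebraMap R' (R' ⊗[R] C))).comap (algebraMap R R') = maximalIdeal R := by
      rw [Ideal.comap_comap, ← IsScalarTower.algebraMap_eq]
      have : algebraMap R (R' ⊗[R] C) = (algebraMap C (R' ⊗[R] C)).comp (algebraMap R C) := by
        ext x
        simp [Algebra.algebraMap_eq_smul_one]
      rw [this, ← Ideal.comap_comap, hC M, IsLocalRing.maximalIdeal_comap]
    have h2 : (M.comap (algebraMap R' (R' ⊗[R] C))).IsMaximal :=
      Ideal.isMaximal_of_isIntegral_of_isMaximal_comap (R := R) _ (h1 ▸ inferInstance)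
    exact IsLocalRing.eq_maximalIdeal h2
  have key : ∀ (M N : Ideal (R' ⊗[R] C)) [M.IsMaximal] [N.IsMaximal], M ≤ N := by
    intro M N hM hN x hx
    obtain ⟨n, c, hc⟩ := exists_pow_sub_mem (C := C) (maximalIdeal R') p h x
    have hJM : (maximalIdeal R').map (algebraMap R' (R' ⊗[R] C)) ≤ M := by
      rw [Ideal.map_le_iff_le_comap, hR' M]
    have hJN : (maximalIdeal R').map (algebraMap R' (R' ⊗[R] C)) ≤ N := by
      rw [Ideal.map_le_iff_le_comap, hR' N]
    have hp : 0 < p ^ n := pow_pos (expChar_pos (R' ⧸ maximalIdeal R') p) n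
    have h1 : (1 : R') ⊗ₜ[R] c ∈ M := by
      have := M.sub_mem (Ideal.pow_mem_of_mem M hx _ hp) (hJM hc)
      simpa using this
    have h2 : c ∈ maximalIdeal C := by rw [← hC M]; exact h1
    have h3 : (1 : R') ⊗ₜ[R] c ∈ N := by rw [← hC N] at h2; exact h2
    have h4 : x ^ p ^ n ∈ N := by
      have := N.add_mem (hJN hc) h3
      simpa using this
    exact hN.isPrime.mem_of_pow_mem _ h4
  obtain ⟨M, hM⟩ := Ideal.exists_maximal (R' ⊗[R] C)
  refine IsLocalRing.of_unique_max_ideal ⟨M, hM, fun N hN => ?_⟩
  have : M.IsMaximal := hM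
  have : N.IsMaximal := hN
  exact le_antisymm (key N M) (key M N)

section

variable (O : Type*) [CommRing O] [IsLocalRing O] [IsSepClosed (ResidueField O)]
  (O' : Type*) [CommRing O'] [IsLocalRing O'] [Algebra O O'] [Algebra.IsIntegral O O']

/-- The residue field extension of a local integral extension of a local ring with separably closed
residue field is purely inseparable. -/
theorem isPurelyInseparable [IsLocalHom (algebraMap O O')] :
    IsPurelyInseparable (ResidueField O) (ResidueField O') := by
  have hint : Algebra.IsIntegral (ResidueField O) (ResidueField O') := by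
    constructor
    intro x
    obtain ⟨y, rfl⟩ := residue_surjective x
    obtain ⟨P, hP, hPy⟩ := Algebra.IsIntegral.isIntegral (R := O) y
    refine ⟨P.map (residue O), hP.map _, ?_⟩
    rw [Polynomial.eval₂_map]
    have h := congrArg (residue O') hPy
    rw [map_zero, Polynomial.hom_eval₂] at h
    exact h
  have : Algebra.IsAlgebraic (ResidueField O) (ResidueField O') := inferInstance
  infer_instance

omit [IsSepClosed (ResidueField O)] in
theorem isLocalHom_algebraMap : IsLocalHom (algebraMap O O') := by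
  have h1 : (maximalIdeal O').comap (algebraMap O O') = maximalIdeal O :=
    IsLocalRing.eq_maximalIdeal (Ideal.isMaximal_comap_of_isIntegral_of_isMaximal (R := O) (maximalIdeal O'))
  exact ((local_hom_TFAE (algebraMap O O')).out 0 4).mpr h1

theorem exists_pow_sub_mem' (p : ℕ) [ExpChar (O' ⧸ maximalIdeal O') p] (x : O') :
    ∃ n : ℕ, ∃ a : O, x ^ p ^ n - algebraMap O O' a ∈ maximalIdeal O' := by
  have := isLocalHom_algebraMap O O'
  have hpi : IsPurelyInseparable (ResidueField O) (ResidueField O') := isPurelyInseparable O O'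
  have hexp' : ExpChar (ResidueField O') p := ‹ExpChar (O' ⧸ maximalIdeal O') p›
  obtain ⟨q, hq⟩ := ExpChar.exists (ResidueField O)
  obtain rfl : p = q := ExpChar.eq hexp'
    (expChar_of_injective_algebraMap (algebraMap (ResidueField O) (ResidueField O')).injective q)
  obtain ⟨n, y, hy⟩ := IsPurelyInseparable.pow_mem (ResidueField O) p (residue O' x)
  obtain ⟨a, rfl⟩ := residue_surjective y
  refine ⟨n, a, ?_⟩
  rw [← residue_eq_zero_iff, map_sub, map_pow, ← hy, sub_eq_zero]
  rfl

/-- `O' ⊗[O] C` is local, for `O'` local and integral over `O`, and `O → C` a local homomorphism. -/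
theorem isLocalRing_tensor (C : Type*) [CommRing C] [IsLocalRing C] [Algebra O C] [IsLocalHom (algebraMap O C)] :
    IsLocalRing (O' ⊗[O] C) := by
  have := isLocalHom_algebraMap O O'
  have := nontrivial_tensor O O' C
  obtain ⟨p, hp⟩ := ExpChar.exists (ResidueField O')
  have hp' : ExpChar (O' ⧸ maximalIdeal O') p := hp
  exact isLocalRing_tensor_aux p (exists_pow_sub_mem' O O' p)

theorem isLocalRing_tensor' (C : Type*) [CommRing C] [IsLocalRing C] [Algebra O C] [IsLocalHom (algebraMap O C)] :
    IsLocalRing (C ⊗[O] O') :=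
  have := isLocalRing_tensor O O' C
  (Algebra.TensorProduct.comm O O' C).toRingEquiv.isLocalRing

end

end Groth.Agent.Pi1.H391.LocTensor
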