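import Mathlib.RingTheory.Smooth.Basic
import Mathlib.RingTheory.Etale.Basic
import Mathlib.RingTheory.Ideal.Quotient.Operations

/-!
# Gluing algebra maps from a formally smooth algebra along two closed subschemes
-/

set_option autoImplicit false

universe u

namespace Groth.Agent.Pi1.H391.Milnor

variable {A C : Type*} [CommRing A] [CommRing C] [Algebra A C] {I J K : Ideal A}

/-- `A ⧸ (I ⊓ J)` is the fibre product of `A ⧸ I` and `A ⧸ J`. -/
theorem exists_inf (s₁ : C →ₐ[A] A ⧸ I) (s₂ : C →ₐ[A] A ⧸ J)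
    (h : (Ideal.Quotient.factorₐ A (le_sup_left : I ≤ I ⊔ J)).comp s₁ =
      (Ideal.Quotient.factorₐ A (le_sup_right : J ≤ I ⊔ J)).comp s₂) :
    ∃ s : C →ₐ[A] A ⧸ (I ⊓ J), (Ideal.Quotient.factorₐ A (inf_le_left : I ⊓ J ≤ I)).comp s = s₁ ∧
      (Ideal.Quotient.factorₐ A (inf_le_right : I ⊓ J ≤ J)).comp s = s₂ := by
  let π : A ⧸ (I ⊓ J) →ₐ[A] (A ⧸ I) × (A ⧸ J) :=
    (Ideal.Quotient.factorₐ A (inf_le_left : I ⊓ J ≤ I)).prod
      (Ideal.Quotient.factorₐ A (inf_le_right : I ⊓ J ≤ J))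
  have hπ : Function.Injective π := by
    rw [injective_iff_map_eq_zero]
    intro x hx
    obtain ⟨x, rfl⟩ := Ideal.Quotient.mk_surjective x
    have h1 : Ideal.Quotient.mk I x = 0 := congrArg Prod.fst hx
    have h2 : Ideal.Quotient.mk J x = 0 := congrArg Prod.snd hx
    rw [Ideal.Quotient.eq_zero_iff_mem] at h1 h2 ⊢
    exact ⟨h1, h2⟩
  have hr : ∀ c, (s₁.prod s₂) c ∈ π.range := by
    intro c
    obtain ⟨a, ha⟩ := Ideal.Quotient.mk_surjective (s₁ c)
    obtain ⟨b, hb⟩ := Ideal.Quotient.mk_surjective (s₂ c)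
    have h1 := congr($h c)
    rw [AlgHom.comp_apply, AlgHom.comp_apply, ← ha, ← hb] at h1
    change Ideal.Quotient.mk (I ⊔ J) a = Ideal.Quotient.mk (I ⊔ J) b at h1
    rw [Ideal.Quotient.eq, Submodule.mem_sup] at h1
    obtain ⟨x, hx, y, hy, hxy⟩ := h1
    refine ⟨Ideal.Quotient.mk _ (a - x), ?_⟩
    apply Prod.ext
    · change Ideal.Quotient.mk I (a - x) = s₁ c
      rw [← ha, Ideal.Quotient.eq]
      simpa using hx
    · change Ideal.Quotient.mk J (a - x) = s₂ c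
      rw [← hb, Ideal.Quotient.eq]
      have : a - x - b = y := by linear_combination -hxy
      rw [this]
      exact hy
  let e := AlgEquiv.ofInjective π hπ
  let s : C →ₐ[A] A ⧸ (I ⊓ J) := e.symm.toAlgHom.comp ((s₁.prod s₂).codRestrict π.range hr)
  have hs : ∀ c, π (s c) = (s₁.prod s₂) c := by
    intro c
    have h1 : e (s c) = (s₁.prod s₂).codRestrict π.range hr c := by
      simp [s]
    exact congrArg Subtype.val h1
  refine ⟨s, ?_, ?_⟩
  · ext c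
    exact congrArg Prod.fst (hs c)
  · ext c
    exact congrArg Prod.snd (hs c)

/-- Nilpotent thickenings of quotients. -/
theorem exists_lift_nilpotent [Algebra.FormallySmooth A C] (hKI : K ≤ I) (hI : I * I ≤ K) (s : C →ₐ[A] A ⧸ I) :
    ∃ s' : C →ₐ[A] A ⧸ K, (Ideal.Quotient.factorₐ A hKI).comp s' = s := by
  let π : (A ⧸ K) →ₐ[A] A ⧸ I := Ideal.Quotient.factorₐ A hKI
  have hπ : Function.Surjective π := Ideal.Quotient.factor_surjective hKI
  have hnil : IsNilpotent (RingHom.ker (π : (A ⧸ K) →+* A ⧸ I)) := by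
    refine ⟨2, ?_⟩
    rw [Ideal.zero_eq_bot, eq_bot_iff, pow_two, Ideal.mul_le]
    intro x hx y hy
    obtain ⟨x, rfl⟩ := Ideal.Quotient.mk_surjective x
    obtain ⟨y, rfl⟩ := Ideal.Quotient.mk_surjective y
    have h1 : Ideal.Quotient.mk I x = 0 := hx
    have h2 : Ideal.Quotient.mk I y = 0 := hy
    rw [Ideal.Quotient.eq_zero_iff_mem] at h1 h2
    rw [Ideal.mem_bot, ← map_mul, Ideal.Quotient.eq_zero_iff_mem]
    exact hI (Ideal.mul_mem_mul h1 h2)
  exact ⟨Algebra.FormallySmooth.liftOfSurjective s π hπ hnil,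
    Algebra.FormallySmooth.comp_liftOfSurjective s π hπ hnil⟩

/-- Sections over `A ⧸ I` and `A ⧸ J` agreeing on `A ⧸ (I ⊔ J)` glue to `A ⧸ K` if `I * J ≤ K`. -/
theorem exists_glue [Algebra.FormallySmooth A C] (hKI : K ≤ I) (hKJ : K ≤ J) (hIJ : I * J ≤ K)
    (s₁ : C →ₐ[A] A ⧸ I) (s₂ : C →ₐ[A] A ⧸ J)
    (h : (Ideal.Quotient.factorₐ A (le_sup_left : I ≤ I ⊔ J)).comp s₁ =
      (Ideal.Quotient.factorₐ A (le_sup_right : J ≤ I ⊔ J)).comp s₂) :
    ∃ s : C →ₐ[A] A ⧸ K, (Ideal.Quotient.factorₐ A hKI).comp s = s₁ ∧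
      (Ideal.Quotient.factorₐ A hKJ).comp s = s₂ := by
  obtain ⟨s', h1, h2⟩ := exists_inf s₁ s₂ h
  obtain ⟨s, hs⟩ := exists_lift_nilpotent (K := K) (I := I ⊓ J) (le_inf hKI hKJ)
    ((Ideal.mul_mono inf_le_left inf_le_right).trans hIJ) s'
  refine ⟨s, ?_, ?_⟩
  · rw [← h1, ← hs, ← AlgHom.comp_assoc]
    congr 1
    ext x
    obtain ⟨x, rfl⟩ := Ideal.Quotient.mk_surjective x
    rfl
  · rw [← h2, ← hs, ← AlgHom.comp_assoc]
    congr 1
    ext x
    obtain ⟨x, rfl⟩ := Ideal.Quotient.mk_surjective x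
    rfl

end Groth.Agent.Pi1.H391.Milnor
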