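import Groth.Agent.Hensel.Lazard
import Groth.Prelude.Def_SGA1t
import Groth.Agent.Pi1.H390.KumBasic
import Mathlib.RingTheory.Etale.Basic
import Mathlib.RingTheory.TensorProduct.Finite
import Mathlib.RingTheory.DiscreteValuationRing.Basic
import Mathlib.RingTheory.Localization.AtPrime.Basic

/-!
# Further interface statements for the relative Abhyankar lemma (S3689)
-/

set_option autoImplicit false

universe u

open TensorProduct IsLocalRing

namespace Groth.Agent.Pi1.H391.Stmts2

/-- `Spec C ×_{Spec A} Spec A' → Spec A'` is split pointwise: every field valued point lies on a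
section. -/
def AlgPtSplit (A C A' : Type u) [CommRing A] [CommRing C] [CommRing A'] [Algebra A C] [Algebra A A'] : Prop :=
  ∀ (Ω : Type u) [Field Ω] (c : C →+* Ω) (a : A' →+* Ω),
    c.comp (algebraMap A C) = a.comp (algebraMap A A') → ∃ s : C →ₐ[A] A', a.comp s.toRingHom = c

/-- (G1) A local ring `R`, ind-etale over `O[X_σ]` with `O` a normal local domain and `O → R` local,
is a normal domain, each coordinate `X_j` in the maximal ideal generates a prime ideal not meeting `O`, and the
localization at it is a discrete valuation ring with uniformizer `X_j`. -/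
def NormalChart : Prop :=
  ∀ (O R : Type u) [CommRing O] [IsDomain O] [IsLocalRing O] [IsIntegrallyClosed O]
    [CommRing R] [IsLocalRing R] [Algebra O R] [IsLocalHom (algebraMap O R)]
    (σ : Type) [Finite σ] [Algebra (MvPolynomial σ O) R] [IsScalarTower O (MvPolynomial σ O) R]
    (_ : Groth.Agent.Hensel.Lazard.Laz (MvPolynomial σ O) R),
    IsDomain R ∧ IsIntegrallyClosed R ∧
    ∀ (j : σ) (t : R), algebraMap (MvPolynomial σ O) R (MvPolynomial.X j) = t → t ∈ maximalIdeal R →
      (Ideal.span {t}).IsPrime ∧ (∀ a : O, algebraMap O R a ∈ Ideal.span {t} → a = 0) ∧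
      ∀ (B : Type u) [CommRing B] [IsDomain B] [Algebra R B] [(Ideal.span {t}).IsPrime]
        [IsLocalization.AtPrime B (Ideal.span {t})],
        IsDiscreteValuationRing B ∧ Irreducible (algebraMap R B t)

/-- (G2) Contraction of the prime `(T_i)` of a Kummer algebra. -/
def KumPrime : Prop :=
  ∀ (R : Type u) [CommRing R] (ι : Type) [Finite ι] (t : ι → R) (n : ι → ℕ) (_ : ∀ i, 1 ≤ n i) (i : ι)
    [(Ideal.span {t i}).IsPrime]
    [(Ideal.span {Groth.Agent.Pi1.H390.KumBasic.T t n i}).IsPrime],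
    (Ideal.span {Groth.Agent.Pi1.H390.KumBasic.T t n i}).comap (algebraMap R (SGA1t.kummer R t n)) =
      Ideal.span {t i}

/-- (G3) `A → O` ind-etale, `O' ⊆ Ω` an `O`-algebra with fraction field `Ω`, `R` an `O`-algebra, `P` a prime of
`O' ⊗[O] R` over the zero ideal of `O'`: the local ring of `O' ⊗[O] R` at `P` is a local ring of `R ⊗[A] Ω`. -/
def LocBase : Prop :=
  ∀ (A O O' Ω R : Type u) [CommRing A] [CommRing O] [Algebra A O] (_ : Groth.Agent.Hensel.Lazard.Laz A O)
    [CommRing O'] [IsDomain O'] [Algebra O O'] [Field Ω] [Algebra O' Ω] [IsFractionRing O' Ω]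
    [Algebra A Ω] [Algebra O Ω] [IsScalarTower A O Ω] [IsScalarTower O O' Ω]
    [CommRing R] [Algebra O R] [Algebra A R] [IsScalarTower A O R]
    (P : Ideal (O' ⊗[O] R)) [P.IsPrime] (_ : ∀ a : O', a ⊗ₜ[O] (1 : R) ∈ P → a = 0)
    (B : Type u) [CommRing B] [Algebra (O' ⊗[O] R) B] [IsLocalization.AtPrime B P],
    ∃ (_ : Algebra (R ⊗[A] Ω) B),
      (∀ r : R, algebraMap (R ⊗[A] Ω) B (r ⊗ₜ 1) = algebraMap (O' ⊗[O] R) B (1 ⊗ₜ r)) ∧
      (∀ a : O', algebraMap (R ⊗[A] Ω) B (1 ⊗ₜ algebraMap O' Ω a) =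
        algebraMap (O' ⊗[O] R) B (a ⊗ₜ 1)) ∧
      ∃ (y : Ideal (R ⊗[A] Ω)) (_ : y.IsPrime), IsLocalization.AtPrime B y

/-- (F2) Sections through the points of one geometric fibre suffice. -/
def OneFibre : Prop :=
  ∀ (A C : Type u) [CommRing A] [CommRing C] [Algebra A C] [Module.Finite A C] [Algebra.Etale A C]
    [ConnectedSpace (PrimeSpectrum A)] (Ω : Type u) [Field Ω] [IsAlgClosed Ω] (a₀ : A →+* Ω)
    (_ : ∀ c₀ : C →+* Ω, c₀.comp (algebraMap A C) = a₀ → ∃ s : C →ₐ[A] A, a₀.comp s.toRingHom = c₀),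
    AlgPtSplit A C A

/-- (F3) If `C` becomes isomorphic over `A'` to the base change of a finite etale algebra over a strictly
henselian local ring `B` then it is pointwise split over `A'`. -/
def SplitOfExt : Prop :=
  ∀ (A C A' B E : Type u) [CommRing A] [CommRing C] [CommRing A'] [Algebra A C] [Algebra A A']
    [CommRing B] [HenselianLocalRing B] [IsSepClosed (ResidueField B)] [Algebra B A']
    [CommRing E] [Algebra B E] [Module.Finite B E] [Algebra.Etale B E]
    (_ : A' ⊗[B] E ≃ₐ[A'] A' ⊗[A] C), AlgPtSplit A C A'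

end Groth.Agent.Pi1.H391.Stmts2
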