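import Groth.Agent.Pi1.H391.DescAlg
import Groth.Agent.Pi1.H391.Milnor
import Groth.Agent.Pi1.H391.IdealInd
import Groth.Agent.Pi1.H391.LocTensor
import Groth.Agent.Pi1.H391.Stmts2
import Mathlib.RingTheory.TensorProduct.Quotient
import Mathlib.RingTheory.Ideal.MinimalPrime.Basic
import Mathlib.FieldTheory.IsAlgClosed.AlgebraicClosure
import Mathlib.RingTheory.IntegralClosure.Algebra.Basic

/-!
# Splitting of a finite etale cover over a general base from its integral covers

`main`: `O` local with separably closed residue field, `A` a flat `O`-algebra with `Spec (A ⊗ O')` connected for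
all local integral `O'`, `C` finite etale over `A` which is split over `A ⊗ O'_η` with `O'_η ⊇ O/η` local
integral, for every minimal prime `η`; then `C` is split.
-/

set_option autoImplicit false

universe u

open TensorProduct IsLocalRing

namespace Groth.Agent.Pi1.H391.General

open Stmts2

/-- ring homomorphism out of a tensor product -/
noncomputable def rlift {O A B T : Type*} [CommRing O] [CommRing A] [CommRing B] [CommRing T] [Algebra O A]
    [Algebra O B] (i : A →+* T) (j : B →+* T) (hij : i.comp (algebraMap O A) = j.comp (algebraMap O B)) :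
    A ⊗[O] B →+* T :=
  letI : Algebra O T := (i.comp (algebraMap O A)).toAlgebra
  (Algebra.TensorProduct.lift
    ({ i with commutes' := fun _ => rfl } : A →ₐ[O] T)
    ({ j with commutes' := fun r => congr($hij r).symm } : B →ₐ[O] T) (fun _ _ => Commute.all _ _)).toRingHom

theorem rlift_tmul {O A B T : Type*} [CommRing O] [CommRing A] [CommRing B] [CommRing T] [Algebra O A]
    [Algebra O B] (i : A →+* T) (j : B →+* T) (hij : i.comp (algebraMap O A) = j.comp (algebraMap O B))
    (a : A) (b : B) : rlift i j hij (a ⊗ₜ b) = i a * j b := rfl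

theorem ringHom_ext {O A B T : Type*} [CommRing O] [CommRing A] [CommRing B] [CommRing T] [Algebra O A]
    [Algebra O B] {f g : A ⊗[O] B →+* T} (h1 : ∀ a, f (a ⊗ₜ 1) = g (a ⊗ₜ 1)) (h2 : ∀ b, f (1 ⊗ₜ b) = g (1 ⊗ₜ b)) :
    f = g := by
  refine RingHom.ext fun x => ?_
  induction x using TensorProduct.induction_on with
  | zero => simp
  | tmul a b =>
    have : a ⊗ₜ[O] b = (a ⊗ₜ 1) * (1 ⊗ₜ b) := by simp
    rw [this, map_mul, map_mul, h1, h2]
  | add x y hx hy => rw [map_add, map_add, hx, hy]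

section

variable {O A C : Type u} [CommRing O] [IsLocalRing O] [CommRing A] [Algebra O A] [CommRing C] [Algebra A C]
  [Module.Finite A C] [Algebra.Etale A C]

theorem connectedSpace_of_ringEquiv {A B : Type*} [CommRing A] [CommRing B] (e : A ≃+* B)
    [ConnectedSpace (PrimeSpectrum A)] : ConnectedSpace (PrimeSpectrum B) :=
  (PrimeSpectrum.homeomorphOfRingEquiv e).surjective.connectedSpace
    (PrimeSpectrum.homeomorphOfRingEquiv e).continuous

omit [IsLocalRing O] in
/-- The section over `A ⊗ O'` equalizes the two maps to `(A ⊗ O') ⊗[A] (A ⊗ O')`. -/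
theorem equalizes {O' : Type u} [CommRing O'] [Algebra O O']
    [ConnectedSpace (PrimeSpectrum (A ⊗[O] (O' ⊗[O] O')))] (s : C →ₐ[A] A ⊗[O] O') {Ω : Type u} [Field Ω]
    (a₀ : A →+* Ω) (ρ : O' →+* Ω) (hρ : a₀.comp (algebraMap O A) = ρ.comp (algebraMap O O')) (c : C) :
    (s c) ⊗ₜ[A] (1 : A ⊗[O] O') = (1 : A ⊗[O] O') ⊗ₜ[A] (s c) := by
  let Q := A ⊗[O] O'
  let E := A ⊗[O] (O' ⊗[O] O')
  let j₁ : Q →ₐ[A] E := Algebra.TensorProduct.map (AlgHom.id A A)
    (Algebra.TensorProduct.includeLeft : O' →ₐ[O] O' ⊗[O] O')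
  let j₂ : Q →ₐ[A] E := Algebra.TensorProduct.map (AlgHom.id A A)
    (Algebra.TensorProduct.includeRight : O' →ₐ[O] O' ⊗[O] O')
  have hj₁ : ∀ (a : A) (x : O'), j₁ (a ⊗ₜ x) = a ⊗ₜ (x ⊗ₜ 1) := fun _ _ => rfl
  have hj₂ : ∀ (a : A) (x : O'), j₂ (a ⊗ₜ x) = a ⊗ₜ (1 ⊗ₜ x) := fun _ _ => rfl
  let ρ₂ : O' ⊗[O] O' →+* Ω := rlift ρ ρ rfl
  have hρ₂ : a₀.comp (algebraMap O A) = ρ₂.comp (algebraMap O (O' ⊗[O] O')) := by
    rw [hρ]
    ext r
    change _ = ρ₂ (algebraMap O O' r ⊗ₜ 1)
    rw [rlift_tmul, map_one, mul_one]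
    rfl
  let b : E →+* Ω := rlift a₀ ρ₂ hρ₂
  have hb₁ : ∀ q, b (j₁ q) = b (j₂ q) := by
    intro q
    have : b.comp j₁.toRingHom = b.comp j₂.toRingHom := by
      apply ringHom_ext
      · intro a
        change b (j₁ (a ⊗ₜ 1)) = b (j₂ (a ⊗ₜ 1))
        rw [hj₁, hj₂]
      · intro x
        change b (j₁ (1 ⊗ₜ x)) = b (j₂ (1 ⊗ₜ x))
        rw [hj₁, hj₂, rlift_tmul, rlift_tmul, rlift_tmul, rlift_tmul, map_one ρ, mul_one, one_mul (ρ x)]
    exact congr($this q)
  have h1 : j₁.comp s = j₂.comp s := by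
    refine DescAlg.algHom_eq b _ _ ?_
    ext x
    exact hb₁ (s x)
  let i₁ : Q →ₐ[A] Q ⊗[A] Q := Algebra.TensorProduct.includeLeft
  let i₂ : Q →ₐ[A] Q ⊗[A] Q := Algebra.TensorProduct.includeRight
  let k : O' ⊗[O] O' →ₐ[O] Q ⊗[A] Q := Algebra.TensorProduct.lift
    ((i₁.restrictScalars O).comp (Algebra.TensorProduct.includeRight : O' →ₐ[O] Q))
    ((i₂.restrictScalars O).comp (Algebra.TensorProduct.includeRight : O' →ₐ[O] Q)) (fun _ _ => Commute.all _ _)
  let ψ : E →ₐ[A] Q ⊗[A] Q := Algebra.TensorProduct.lift (Algebra.ofId A _) k (fun _ _ => Commute.all _ _)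
  have hk : ∀ x y : O', k (x ⊗ₜ y) = i₁ (1 ⊗ₜ x) * i₂ (1 ⊗ₜ y) := fun _ _ => rfl
  have hψ : ∀ (a : A) (y : O' ⊗[O] O'), ψ (a ⊗ₜ y) = algebraMap A _ a * k y := fun _ _ => rfl
  have hψ₁ : ψ.comp j₁ = i₁ := by
    apply Algebra.TensorProduct.ext
    · ext
    · ext x
      change ψ (j₁ (1 ⊗ₜ x)) = i₁ (1 ⊗ₜ x)
      rw [hj₁, hψ, hk, map_one, one_mul]
      change _ * i₂ 1 = _
      rw [map_one, mul_one]
  have hψ₂ : ψ.comp j₂ = i₂ := by
    apply Algebra.TensorProduct.ext
    · ext
    · ext x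
      change ψ (j₂ (1 ⊗ₜ x)) = i₂ (1 ⊗ₜ x)
      rw [hj₂, hψ, hk, map_one, one_mul]
      change i₁ 1 * _ = _
      rw [map_one, one_mul]
  have h2 : i₁.comp s = i₂.comp s := by
    rw [← hψ₁, ← hψ₂, AlgHom.comp_assoc, AlgHom.comp_assoc, h1]
  exact congr($h2 c)

/-- A closed point. -/
theorem exists_point (h : Nontrivial (A ⊗[O] ResidueField O)) :
    ∃ (Ω : Type u) (_ : Field Ω) (_ : IsAlgClosed Ω) (a₀ : A →+* Ω),
      ∀ x ∈ maximalIdeal O, a₀ (algebraMap O A x) = 0 := by
  obtain ⟨M, hM⟩ := Ideal.exists_maximal (A ⊗[O] ResidueField O)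
  let _ : Field ((A ⊗[O] ResidueField O) ⧸ M) := Ideal.Quotient.field M
  refine ⟨AlgebraicClosure ((A ⊗[O] ResidueField O) ⧸ M), inferInstance, inferInstance,
    (algebraMap ((A ⊗[O] ResidueField O) ⧸ M) _).comp ((Ideal.Quotient.mk M).comp
      (Algebra.TensorProduct.includeLeftRingHom)), fun x hx => ?_⟩
  have h1 : (algebraMap O A x) ⊗ₜ[O] (1 : ResidueField O) = 0 := by
    rw [Algebra.algebraMap_eq_smul_one, TensorProduct.smul_tmul, ← Algebra.algebraMap_eq_smul_one]
    have : algebraMap O (ResidueField O) x = 0 := (residue_eq_zero_iff x).mpr hx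
    rw [this, TensorProduct.tmul_zero]
  change algebraMap _ _ (Ideal.Quotient.mk M ((algebraMap O A x) ⊗ₜ[O] (1 : ResidueField O))) = 0
  rw [h1, map_zero, map_zero]

theorem map_le_ker {Ω : Type u} [Field Ω] {a₀ : A →+* Ω} (ha₀ : ∀ x ∈ maximalIdeal O, a₀ (algebraMap O A x) = 0)
    {I : Ideal O} (hI : I ≠ ⊤) : I.map (algebraMap O A) ≤ RingHom.ker a₀ := by
  rw [Ideal.map_le_iff_le_comap]
  intro x hx
  exact ha₀ x (IsLocalRing.le_maximalIdeal hI hx)

/-- The section over `A ⧸ η A` obtained from a splitting over `A ⊗ O'`. -/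
theorem exists_section_prime [Module.Flat O A] [IsSepClosed (ResidueField O)]
    (hconn : ∀ (O' : Type u) [CommRing O'] [IsLocalRing O'] [Algebra O O'] [Algebra.IsIntegral O O'],
      ConnectedSpace (PrimeSpectrum (A ⊗[O] O')))
    {Ω : Type u} [Field Ω] [IsAlgClosed Ω] (a₀ : A →+* Ω) (ha₀ : ∀ x ∈ maximalIdeal O, a₀ (algebraMap O A x) = 0)
    (c₀ : C →+* Ω) (hc₀ : c₀.comp (algebraMap A C) = a₀) (O' : Type u) [CommRing O'] [IsLocalRing O']
    [Algebra O O'] [Algebra.IsIntegral O O'] (hs : AlgPtSplit A C (A ⊗[O] O')) :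
    ∃ s : C →ₐ[A] A ⧸ (RingHom.ker (algebraMap O O')).map (algebraMap O A),
      ∀ b : (A ⧸ (RingHom.ker (algebraMap O O')).map (algebraMap O A)) →+* Ω,
        b.comp (Ideal.Quotient.mk _) = a₀ → b.comp s.toRingHom = c₀ := by
  have hloc := LocTensor.isLocalHom_algebraMap O O'
  -- the extension of the point
  let r₀ : ResidueField O →+* Ω := Ideal.Quotient.lift (maximalIdeal O) (a₀.comp (algebraMap O A)) ha₀
  let _ : Algebra (ResidueField O) Ω := r₀.toAlgebra
  have hpi := LocTensor.isPurelyInseparable O O'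
  have halg : Algebra.IsAlgebraic (ResidueField O) (ResidueField O') := inferInstance
  let r₁ : ResidueField O' →ₐ[ResidueField O] Ω := IsAlgClosed.lift
  let ρ : O' →+* Ω := r₁.toRingHom.comp (residue O')
  have hρ : a₀.comp (algebraMap O A) = ρ.comp (algebraMap O O') := by
    ext x
    change _ = r₁ (residue O' (algebraMap O O' x))
    have h1 : residue O' (algebraMap O O' x) = algebraMap (ResidueField O) (ResidueField O') (residue O x) := rfl
    rw [h1, r₁.commutes]
    rfl
  let b' : A ⊗[O] O' →+* Ω := rlift a₀ ρ hρ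
  have hb' : b'.comp (algebraMap A (A ⊗[O] O')) = a₀ := by
    ext x
    change b' (x ⊗ₜ 1) = a₀ x
    rw [rlift_tmul, map_one, mul_one]
  obtain ⟨s', hs'⟩ := hs Ω c₀ b' (by rw [hc₀, hb'])
  -- locality and connectedness
  have hlt : IsLocalRing (O' ⊗[O] O') := LocTensor.isLocalRing_tensor O O' O'
  have hint : Algebra.IsIntegral O (O' ⊗[O] O') := Algebra.IsIntegral.trans O'
  have hcon := hconn (O' ⊗[O] O')
  have heq := equalizes s' a₀ ρ hρ
  -- descent
  set η := RingHom.ker (algebraMap O O') with hη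
  let P := A ⧸ η.map (algebraMap O A)
  let Q := A ⊗[O] O'
  have hker : ∀ x ∈ η.map (algebraMap O A), algebraMap A Q x = 0 := by
    intro x hx
    have h1 : η.map (algebraMap O A) ≤ RingHom.ker (algebraMap A Q) := by
      rw [Ideal.map_le_iff_le_comap]
      intro y hy
      rw [Ideal.mem_comap, RingHom.mem_ker]
      change (algebraMap O A y) ⊗ₜ[O] (1 : O') = 0
      rw [Algebra.algebraMap_eq_smul_one, TensorProduct.smul_tmul, ← Algebra.algebraMap_eq_smul_one]
      have : algebraMap O O' y = 0 := hy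
      rw [this, TensorProduct.tmul_zero]
    exact h1 hx
  let π : P →+* Q := Ideal.Quotient.lift _ (algebraMap A Q) hker
  let _ : Algebra P Q := π.toAlgebra
  have htower : IsScalarTower A P Q := IsScalarTower.of_algebraMap_eq fun x => rfl
  have hintQ : Algebra.IsIntegral P Q := Algebra.IsIntegral.tower_top (R := A)
  have hinj : Function.Injective (algebraMap P Q) := by
    let e := Algebra.TensorProduct.quotIdealMapEquivTensorQuot A η
    let g : (O ⧸ η) →ₐ[O] O' := Ideal.Quotient.liftₐ η (Algebra.ofId O O') (fun x hx => hx)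
    have hg : Function.Injective g := by
      rw [injective_iff_map_eq_zero]
      intro x hx
      obtain ⟨x, rfl⟩ := Ideal.Quotient.mk_surjective x
      rw [Ideal.Quotient.eq_zero_iff_mem]
      exact hx
    have h2 : Function.Injective (Algebra.TensorProduct.map (AlgHom.id A A) g) :=
      Module.Flat.lTensor_preserves_injective_linearMap (M := A) g.toLinearMap hg
    have h3 : ∀ x : P, algebraMap P Q x = Algebra.TensorProduct.map (AlgHom.id A A) g (e x) := by
      intro x
      obtain ⟨x, rfl⟩ := Ideal.Quotient.mk_surjective x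
      have h4 : e (Ideal.Quotient.mk _ x) = x ⊗ₜ 1 := rfl
      rw [h4]
      simp only [Algebra.TensorProduct.map_tmul, map_one]
      rfl
    intro x y hxy
    rw [h3, h3] at hxy
    exact e.injective (h2 hxy)
  have hfaith : FaithfulSMul P Q := (faithfulSMul_iff_algebraMap_injective P Q).mpr hinj
  have hsurj : Function.Surjective (PrimeSpectrum.comap (algebraMap P Q)) :=
    Algebra.IsIntegral.comap_surjective P Q
  obtain ⟨s, hs⟩ := DescAlg.exists_desc (P := P) (Q := Q) hsurj s' (fun c => by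
    have h5 := congrArg (Algebra.TensorProduct.mapOfCompatibleSMul P A A Q Q) (heq c)
    simpa using h5)
  refine ⟨s, fun b hb => ?_⟩
  have h6 : b = b'.comp (algebraMap P Q) := by
    apply Ideal.Quotient.ringHom_ext
    rw [hb, RingHom.comp_assoc]
    have : (algebraMap P Q).comp (Ideal.Quotient.mk _) = algebraMap A Q := by
      ext x; rfl
    rw [this, hb']
  ext c
  rw [h6]
  change b' (algebraMap P Q (s c)) = c₀ c
  rw [hs]
  exact congr($hs' c)

/-- **Splitting over a general base.** -/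
theorem main [IsSepClosed (ResidueField O)] [Module.Flat O A]
    (hconn : ∀ (O' : Type u) [CommRing O'] [IsLocalRing O'] [Algebra O O'] [Algebra.IsIntegral O O'],
      ConnectedSpace (PrimeSpectrum (A ⊗[O] O')))
    (hmin : ∀ η ∈ minimalPrimes O, ∃ (O' : Type u) (_ : CommRing O') (_ : IsLocalRing O') (_ : Algebra O O')
      (_ : Algebra.IsIntegral O O'), RingHom.ker (algebraMap O O') = η ∧ AlgPtSplit A C (A ⊗[O] O'))
    (hOF : OneFibre.{u}) : AlgPtSplit A C A := by
  have hconnA : ConnectedSpace (PrimeSpectrum A) := by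
    have := hconn O
    exact connectedSpace_of_ringEquiv (Algebra.TensorProduct.rid O O A).toRingEquiv
  have hconnk : ConnectedSpace (PrimeSpectrum (A ⊗[O] ResidueField O)) := by
    have : Algebra.IsIntegral O (ResidueField O) :=
      Algebra.isIntegral_of_surjective (by exact residue_surjective)
    exact hconn (ResidueField O)
  have hnt : Nontrivial (A ⊗[O] ResidueField O) := PrimeSpectrum.nonempty_iff_nontrivial.mp inferInstance
  obtain ⟨Ω, _, _, a₀, ha₀⟩ := exists_point hnt
  refine hOF A C Ω a₀ fun c₀ hc₀ => ?_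
  let P : Ideal O → Prop := fun I => ∃ s : C →ₐ[A] A ⧸ I.map (algebraMap O A),
    ∀ b : (A ⧸ I.map (algebraMap O A)) →+* Ω, b.comp (Ideal.Quotient.mk _) = a₀ → b.comp s.toRingHom = c₀
  have hmono : ∀ I J : Ideal O, I ≤ J → P I → P J := by
    rintro I J hIJ ⟨s, hs⟩
    refine ⟨(Ideal.Quotient.factorₐ A (Ideal.map_mono hIJ)).comp s, fun b hb => ?_⟩
    rw [← hs (b.comp (Ideal.Quotient.factorₐ A (Ideal.map_mono (f := algebraMap O A) hIJ)).toRingHom) (by
      rw [← hb]; rfl)]
    rfl
  have hfg : ∀ I : Ideal O, P I → ∃ I' ≤ I, I'.FG ∧ P I' := by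
    rintro I ⟨s, hs⟩
    by_cases hI : I = ⊤
    · exact ⟨I, le_rfl, hI ▸ ⟨{1}, by simp⟩, s, hs⟩
    obtain ⟨I', hle, hfg, s', hs'⟩ := IdealInd.exists_fg_lift I s
    refine ⟨I', hle, hfg, s', fun b hb => ?_⟩
    let b₁ : (A ⧸ I.map (algebraMap O A)) →+* Ω := Ideal.Quotient.lift _ a₀ (fun x hx => map_le_ker ha₀ hI hx)
    have h1 : b = b₁.comp (Ideal.Quotient.factorₐ A (Ideal.map_mono (f := algebraMap O A) hle)).toRingHom := by
      apply Ideal.Quotient.ringHom_ext
      rw [hb]
      ext x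
      rfl
    rw [h1, RingHom.comp_assoc]
    have h2 : ((Ideal.Quotient.factorₐ A (Ideal.map_mono (f := algebraMap O A) hle)).toRingHom).comp
        s'.toRingHom = s.toRingHom := by
      rw [← hs']
      rfl
    rw [h2]
    exact hs b₁ (by ext x; rfl)
  have htop : P ⊤ := by
    have hsub : Subsingleton (A ⧸ (⊤ : Ideal O).map (algebraMap O A)) := by
      rw [Ideal.map_top]
      infer_instance
    refine ⟨{ toFun := fun _ => 0, map_one' := Subsingleton.elim _ _, map_mul' := fun _ _ => Subsingleton.elim _ _,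
              map_zero' := rfl, map_add' := fun _ _ => Subsingleton.elim _ _,
              commutes' := fun _ => Subsingleton.elim _ _ }, fun b hb => ?_⟩
    exfalso
    have h1 : b 1 = 0 := by
      rw [Subsingleton.elim (1 : A ⧸ (⊤ : Ideal O).map (algebraMap O A)) 0, map_zero]
    rw [map_one] at h1
    exact one_ne_zero h1
  have hprime : ∀ p : Ideal O, p.IsPrime → P p := by
    intro p hp
    obtain ⟨η, hη, hηp⟩ := Ideal.exists_minimalPrimes_le (I := ⊥) (J := p) bot_le
    obtain ⟨O', _, _, _, _, hker, hs⟩ := hmin η hη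
    refine hmono η p hηp ?_
    rw [← hker]
    exact exists_section_prime hconn a₀ ha₀ c₀ hc₀ O' hs
  have hmul : ∀ I J K : Ideal O, I * J ≤ K → K ≤ I → K ≤ J → P I → P J → P K := by
    intro I J K hIJ hKI hKJ hPI hPJ
    by_cases hI : I = ⊤
    · have : J ≤ K := by rw [hI, Ideal.top_mul] at hIJ; exact hIJ
      exact hmono J K this hPJ
    by_cases hJ : J = ⊤
    · have : I ≤ K := by rw [hJ, Ideal.mul_top] at hIJ; exact hIJ
      exact hmono I K this hPI
    obtain ⟨s₁, hs₁⟩ := hPI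
    obtain ⟨s₂, hs₂⟩ := hPJ
    have hIJtop : I ⊔ J ≠ ⊤ := by
      intro h
      have h1 : (⊤ : Ideal O) ≤ maximalIdeal O := by
        rw [← h]
        exact sup_le (IsLocalRing.le_maximalIdeal hI) (IsLocalRing.le_maximalIdeal hJ)
      exact (maximalIdeal.isMaximal O).ne_top (top_le_iff.mp h1)
    have hconnIJ : ConnectedSpace (PrimeSpectrum (A ⧸ (I.map (algebraMap O A) ⊔ J.map (algebraMap O A)))) := by
      have hnt : Nontrivial (O ⧸ (I ⊔ J)) := Ideal.Quotient.nontrivial_iff.mpr hIJtop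
      have hloc : IsLocalRing (O ⧸ (I ⊔ J)) := IsLocalRing.of_surjective' _ Ideal.Quotient.mk_surjective
      have hint : Algebra.IsIntegral O (O ⧸ (I ⊔ J)) :=
        Algebra.isIntegral_of_surjective (by exact Ideal.Quotient.mk_surjective)
      have := hconn (O ⧸ (I ⊔ J))
      rw [← Ideal.map_sup]
      exact connectedSpace_of_ringEquiv (Algebra.TensorProduct.quotIdealMapEquivTensorQuot A (I ⊔ J)).symm.toRingEquiv
    let b₃ : (A ⧸ (I.map (algebraMap O A) ⊔ J.map (algebraMap O A))) →+* Ω := Ideal.Quotient.lift _ a₀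
      (fun x hx => sup_le (map_le_ker ha₀ hI) (map_le_ker ha₀ hJ) hx)
    obtain ⟨s, hsI, hsJ⟩ := Milnor.exists_glue (A := A) (C := C) (I := I.map (algebraMap O A))
      (J := J.map (algebraMap O A)) (K := K.map (algebraMap O A)) (Ideal.map_mono hKI) (Ideal.map_mono hKJ)
      (by rw [← Ideal.map_mul]; exact Ideal.map_mono hIJ) s₁ s₂ (by
        refine DescAlg.algHom_eq b₃ _ _ ?_
        have h1 := hs₁ (b₃.comp (Ideal.Quotient.factorₐ A (le_sup_left :
          I.map (algebraMap O A) ≤ I.map (algebraMap O A) ⊔ J.map (algebraMap O A))).toRingHom) (by ext x; rfl)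
        have h2 := hs₂ (b₃.comp (Ideal.Quotient.factorₐ A (le_sup_right :
          J.map (algebraMap O A) ≤ I.map (algebraMap O A) ⊔ J.map (algebraMap O A))).toRingHom) (by ext x; rfl)
        exact h1.trans h2.symm)
    refine ⟨s, fun b hb => ?_⟩
    let b₁ : (A ⧸ I.map (algebraMap O A)) →+* Ω := Ideal.Quotient.lift _ a₀ (fun x hx => map_le_ker ha₀ hI hx)
    have h1 : b = b₁.comp (Ideal.Quotient.factorₐ A (Ideal.map_mono (f := algebraMap O A) hKI)).toRingHom := by
      apply Ideal.Quotient.ringHom_ext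
      rw [hb]
      ext x
      rfl
    rw [h1, RingHom.comp_assoc]
    have h2 : ((Ideal.Quotient.factorₐ A (Ideal.map_mono (f := algebraMap O A) hKI)).toRingHom).comp
        s.toRingHom = s₁.toRingHom := by
      rw [← hsI]
      rfl
    rw [h2]
    exact hs₁ b₁ (by ext x; rfl)
  obtain ⟨s, hs⟩ := IdealInd.ideal_induction P hmono hfg hprime hmul htop
  have hbot : (⊥ : Ideal O).map (algebraMap O A) = ⊥ := Ideal.map_bot
  let e : (A ⧸ (⊥ : Ideal O).map (algebraMap O A)) ≃ₐ[A] A :=
    (Ideal.quotientEquivAlgOfEq A hbot).trans (AlgEquiv.quotientBot A A)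
  refine ⟨e.toAlgHom.comp s, ?_⟩
  exact hs (a₀.comp e.toRingEquiv.toRingHom) (by ext x; rfl)

end

end Groth.Agent.Pi1.H391.General
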