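import Groth.Agent.Pi1.H391.General
import Groth.Agent.Pi1.H390.KumBasic

/-!
# `A ⊗[O] O'` as a localization of the Kummer algebra over `O' ⊗[O] R`

`A` a localization of `kummer R t n` at `∏ t_i`.
-/

set_option autoImplicit false

universe u

open TensorProduct

namespace Groth.Agent.Pi1.H391.KumTensor

open General Groth.Agent.Pi1.H390

section

variable {O R : Type u} [CommRing O] [CommRing R] [Algebra O R] {ι : Type}
  (O' : Type u) [CommRing O'] [Algebra O O']
  (A : Type u) [CommRing A] [Algebra R A] [Algebra O A] [IsScalarTower O R A]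

/-- `O' ⊗ R → A ⊗ O'`. -/
noncomputable def baseHom : O' ⊗[O] R →+* A ⊗[O] O' :=
  rlift (Algebra.TensorProduct.includeRight : O' →ₐ[O] A ⊗[O] O').toRingHom
    ((algebraMap A (A ⊗[O] O')).comp (algebraMap R A)) (by
      ext x
      change (Algebra.TensorProduct.includeRight : O' →ₐ[O] A ⊗[O] O') (algebraMap O O' x) =
        algebraMap A (A ⊗[O] O') (algebraMap R A (algebraMap O R x))
      rw [AlgHom.commutes, ← IsScalarTower.algebraMap_apply O R A,
        ← IsScalarTower.algebraMap_apply O A (A ⊗[O] O')])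

theorem baseHom_tmul (a : O') (r : R) : baseHom O' A (a ⊗ₜ[O] r) = algebraMap R A r ⊗ₜ[O] a := by
  change rlift _ _ _ (a ⊗ₜ r) = _
  rw [rlift_tmul]
  change ((1 : A) ⊗ₜ[O] a) * (algebraMap R A r ⊗ₜ[O] (1 : O')) = _
  rw [Algebra.TensorProduct.tmul_mul_tmul, one_mul, mul_one]

theorem aux (Kr Kr' : Type u) [CommRing Kr] [CommRing Kr'] [Algebra R Kr] [Algebra (O' ⊗[O] R) Kr']
    (T : ι → Kr) (T' : ι → Kr')
    (hext : ∀ (S : Type u) [CommRing S] (φ ψ : Kr →+* S),
      (∀ r, φ (algebraMap R Kr r) = ψ (algebraMap R Kr r)) → (∀ i, φ (T i) = ψ (T i)) → φ = ψ)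
    (hext' : ∀ (S : Type u) [CommRing S] (φ ψ : Kr' →+* S),
      (φ.comp (algebraMap (O' ⊗[O] R) Kr') = ψ.comp (algebraMap (O' ⊗[O] R) Kr')) →
        (∀ i, φ (T' i) = ψ (T' i)) → φ = ψ)
    (k : Kr →+* Kr') (hk : ∀ r, k (algebraMap R Kr r) = algebraMap (O' ⊗[O] R) Kr' (1 ⊗ₜ r))
    (hkT : ∀ i, k (T i) = T' i)
    [Algebra Kr A] [IsScalarTower R Kr A]
    (p : R) [IsLocalization.Away (algebraMap R Kr p) A]
    (F : Kr' →+* A ⊗[O] O')
    (hF : ∀ a r, F (algebraMap (O' ⊗[O] R) Kr' (a ⊗ₜ r)) = algebraMap R A r ⊗ₜ a)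
    (hFT : ∀ i, F (T' i) = algebraMap Kr A (T i) ⊗ₜ 1) :
    letI := F.toAlgebra
    IsLocalization.Away (algebraMap (O' ⊗[O] R) Kr' ((1 : O') ⊗ₜ[O] p)) (A ⊗[O] O') := by
  let _ : Algebra Kr' (A ⊗[O] O') := F.toAlgebra
  let x := algebraMap (O' ⊗[O] R) Kr' ((1 : O') ⊗ₜ[O] p)
  let Q := Localization.Away x
  have hx : F x = (algebraMap R A p) ⊗ₜ[O] (1 : O') := hF 1 p
  have hu : IsUnit (algebraMap R A p) := by
    rw [IsScalarTower.algebraMap_apply R Kr A]
    exact IsLocalization.map_units A (⟨_, Submonoid.mem_powers _⟩ : Submonoid.powers (algebraMap R Kr p))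
  let u : Q →+* A ⊗[O] O' := IsLocalization.lift (M := Submonoid.powers x) (g := F) (by
    rintro ⟨_, m, rfl⟩
    rw [map_pow]
    change IsUnit ((F x) ^ m)
    rw [hx]
    exact (hu.map (algebraMap A (A ⊗[O] O'))).pow m)
  have hkx : k (algebraMap R Kr p) = x := hk p
  let w : A →+* Q := IsLocalization.lift
    (M := Submonoid.powers (algebraMap R Kr p)) (g := (algebraMap Kr' Q).comp k) (by
    rintro ⟨_, m, rfl⟩
    rw [map_pow]
    refine IsUnit.pow m ?_
    rw [RingHom.comp_apply, hkx]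
    exact IsLocalization.map_units Q (⟨_, Submonoid.mem_powers _⟩ : Submonoid.powers x))
  have hw : ∀ y, w (algebraMap Kr A y) = algebraMap Kr' Q (k y) := fun y =>
    IsLocalization.lift_eq _ y
  have hu' : ∀ y, u (algebraMap Kr' Q y) = F y := fun y => IsLocalization.lift_eq _ y
  let j : O' →+* Q := (algebraMap Kr' Q).comp ((algebraMap (O' ⊗[O] R) Kr').comp (algebraMap O' (O' ⊗[O] R)))
  have hj : ∀ b, j b = algebraMap Kr' Q (algebraMap (O' ⊗[O] R) Kr' (b ⊗ₜ 1)) := fun b => rfl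
  let v : A ⊗[O] O' →+* Q := rlift w j (by
    ext y
    change w (algebraMap O A y) = j (algebraMap O O' y)
    rw [IsScalarTower.algebraMap_apply O R A, IsScalarTower.algebraMap_apply R Kr A, hw, hk, hj]
    congr 2
    rw [Algebra.algebraMap_eq_smul_one, Algebra.algebraMap_eq_smul_one, TensorProduct.tmul_smul,
      TensorProduct.smul_tmul'])
  have hv : ∀ a b, v (a ⊗ₜ b) = w a * j b := fun a b => rfl
  have h1 : v.comp u = RingHom.id Q := by
    refine IsLocalization.ringHom_ext (Submonoid.powers x) ?_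
    rw [RingHom.id_comp]
    refine hext' _ _ _ ?_ ?_
    · refine ringHom_ext (fun a => ?_) (fun r => ?_)
      · simp only [RingHom.comp_apply]
        rw [hu', hF, map_one, hv, map_one, one_mul, hj]
      · simp only [RingHom.comp_apply]
        rw [hu', hF, hv, map_one, mul_one, IsScalarTower.algebraMap_apply R Kr A, hw, hk]
    · intro i
      simp only [RingHom.comp_apply]
      rw [hu', hFT, hv, map_one, mul_one, hw, hkT]
  have h3 : u.comp w = (algebraMap A (A ⊗[O] O')) := by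
    refine IsLocalization.ringHom_ext (Submonoid.powers (algebraMap R Kr p)) ?_
    refine hext _ _ _ ?_ ?_
    · intro r
      simp only [RingHom.comp_apply]
      rw [hw, hu', hk, hF, ← IsScalarTower.algebraMap_apply R Kr A]
      rfl
    · intro i
      simp only [RingHom.comp_apply]
      rw [hw, hu', hkT, hFT]
      rfl
  have h2 : u.comp v = RingHom.id (A ⊗[O] O') := by
    refine ringHom_ext (fun a => ?_) (fun b => ?_)
    · simp only [RingHom.comp_apply, RingHom.id_apply]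
      rw [hv, map_one, mul_one]
      exact RingHom.congr_fun h3 a
    · simp only [RingHom.comp_apply, RingHom.id_apply]
      rw [hv, map_one, one_mul, hj, hu', hF, map_one]
  let ε : Q ≃ₐ[Kr'] A ⊗[O] O' :=
    AlgEquiv.ofRingEquiv (f := RingEquiv.ofRingHom u v h2 h1) hu'
  exact IsLocalization.isLocalization_of_algEquiv (Submonoid.powers x) ε

end

variable {O R : Type u} [CommRing O] [CommRing R] [Algebra O R] {ι : Type} (t : ι → R) (n : ι → ℕ)
  (O' : Type u) [CommRing O'] [Algebra O O']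
  (A : Type u) [CommRing A] [Algebra (SGA1t.kummer R t n) A] [Algebra R A]
  [IsScalarTower R (SGA1t.kummer R t n) A] [Algebra O A] [IsScalarTower O R A]

theorem exists_kumHom (t' : ι → O' ⊗[O] R) (ht' : ∀ i, t' i = 1 ⊗ₜ t i) :
    ∃ F : SGA1t.kummer (O' ⊗[O] R) t' n →+* A ⊗[O] O',
      (∀ a r, F (algebraMap (O' ⊗[O] R) (SGA1t.kummer (O' ⊗[O] R) t' n) (a ⊗ₜ r)) = algebraMap R A r ⊗ₜ a) ∧
      ∀ i, F (KumBasic.T t' n i) = algebraMap (SGA1t.kummer R t n) A (KumBasic.T t n i) ⊗ₜ 1 := by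
  let _ : Algebra (O' ⊗[O] R) (A ⊗[O] O') := (baseHom O' A).toAlgebra
  have h0 : ∀ a r, algebraMap (O' ⊗[O] R) (A ⊗[O] O') (a ⊗ₜ r) = algebraMap R A r ⊗ₜ a :=
    fun a r => baseHom_tmul O' A a r
  have h1 : ∀ i, ((algebraMap (SGA1t.kummer R t n) A (KumBasic.T t n i)) ⊗ₜ[O] (1 : O')) ^ n i =
      algebraMap (O' ⊗[O] R) (A ⊗[O] O') (t' i) := by
    intro i
    rw [ht', h0, Algebra.TensorProduct.tmul_pow, one_pow, ← map_pow, KumBasic.T_pow,
        ← IsScalarTower.algebraMap_apply R (SGA1t.kummer R t n) A]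
  refine ⟨(KumBasic.lift t' n (fun i => (algebraMap (SGA1t.kummer R t n) A (KumBasic.T t n i)) ⊗ₜ[O] (1 : O'))
    h1 : SGA1t.kummer (O' ⊗[O] R) t' n →ₐ[O' ⊗[O] R] A ⊗[O] O'), fun a r => ?_, fun i => ?_⟩
  · rw [← h0]
    exact AlgHom.commutes (KumBasic.lift t' n _ h1) (a ⊗ₜ r)
  · exact KumBasic.lift_T t' n _ h1 i

theorem exists_isLocalization (t' : ι → O' ⊗[O] R) (ht' : ∀ i, t' i = 1 ⊗ₜ t i)
    (p : R) [IsLocalization.Away (algebraMap R (SGA1t.kummer R t n) p) A] :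
    ∃ F : SGA1t.kummer (O' ⊗[O] R) t' n →+* A ⊗[O] O',
      (∀ a r, F (algebraMap (O' ⊗[O] R) (SGA1t.kummer (O' ⊗[O] R) t' n) (a ⊗ₜ r)) = algebraMap R A r ⊗ₜ a) ∧
      letI := F.toAlgebra
      IsLocalization.Away (algebraMap (O' ⊗[O] R) (SGA1t.kummer (O' ⊗[O] R) t' n) ((1 : O') ⊗ₜ[O] p))
        (A ⊗[O] O') := by
  obtain ⟨F, hF, hFT⟩ := exists_kumHom t n O' A t' ht'
  refine ⟨F, hF, aux O' A (SGA1t.kummer R t n) (SGA1t.kummer (O' ⊗[O] R) t' n) (KumBasic.T t n)
    (KumBasic.T t' n) (fun S _ φ ψ h1 h2 => KumBasic.ringHom_ext (RingHom.ext h1) h2)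
    (fun S _ φ ψ h1 h2 => KumBasic.ringHom_ext h1 h2)
    (KumBasic.map t n (Algebra.TensorProduct.includeRight : R →ₐ[O] O' ⊗[O] R).toRingHom t'
      (fun i => (ht' i).symm)) (fun r => KumBasic.map_algebraMap t n _ t' _ r)
    (fun i => KumBasic.map_T t n _ t' _ i) p F hF hFT⟩

end Groth.Agent.Pi1.H391.KumTensor
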